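import Cfsg.Agent.M24Type.Frame

set_option autoImplicit false
set_option linter.unusedSectionVars false

/-!
The abelian subgroup of order 64 of a Sylow 2-subgroup of the type of M24 modulo its centre is
strongly closed: elementary abelian subgroups of order 32 are normalised by it, so their conjugates
are conjugate under its normaliser.
-/

namespace Cfsg.Agent.M24Type

open Subgroup
open scoped Pointwise

variable {G : Type*} [Group G] [Finite G]

theorem fix_spec {i : ℕ} (hi : i < 8) (hinv : isInv i = true) :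
    (fixList i i).length = 16 ∧ ∀ j < 8, isInv j = true → i ≠ j → commI i j = true →
      (fixList i j).length ≤ 8 ∧ ∀ n < 64, act j (n ^^^ act i n) = n ^^^ act i n := by
  have h := fixOK_true
  simp only [fixOK, List.all_eq_true, List.mem_range, Bool.or_eq_true, Bool.and_eq_true,
    Bool.not_eq_true', Nat.ble_eq] at h
  rcases h i hi with h | ⟨h1, h2⟩
  · rw [hinv] at h; exact absurd h (by simp)
  refine ⟨Nat.eq_of_beq_eq_true h1, fun j hj hjinv hne hc => ?_⟩
  rcases h2 j hj with ((h | h) | h) | ⟨h3, h4⟩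
  · rw [hjinv] at h; exact absurd h (by simp)
  · exact absurd (Nat.eq_of_beq_eq_true h) hne
  · rw [hc] at h; exact absurd h (by simp)
  · exact ⟨h3, fun n hn => Nat.eq_of_beq_eq_true (h4 n hn)⟩

theorem mem_fixList {i j n : ℕ} :
    n ∈ fixList i j ↔ n < 64 ∧ act i n = n ∧ act j n = n := by
  simp [fixList]

theorem fixList_nodup (i j : ℕ) : (fixList i j).Nodup := List.Nodup.filter _ List.nodup_range

theorem exists_pow_two {E : Subgroup G} (hE : ∀ x ∈ E, x * x = 1) : IsPGroup 2 E :=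
  fun ⟨x, hx⟩ => ⟨1, Subtype.ext (by simpa [pow_two] using hE x hx)⟩

/-- The subgroup generated by `H` and an involution centralising it. -/
theorem card_sup_zpowers {H : Subgroup G} {x : G} (hx : x * x = 1) (hn : x ∉ H)
    (hH : ∀ h ∈ H, h * h = 1) (hc : ∀ a ∈ H, ∀ b ∈ H, a * b = b * a)
    (hcx : ∀ h ∈ H, x * h = h * x) :
    ∃ E : Subgroup G, H ≤ E ∧ x ∈ E ∧ Nat.card E = 2 * Nat.card H ∧ (∀ e ∈ E, e * e = 1) ∧
      (∀ a ∈ E, ∀ b ∈ E, a * b = b * a) ∧ ∀ e ∈ E, e ∈ H ∨ x * e ∈ H := by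
  classical
  let E : Subgroup G :=
    { carrier := {e | e ∈ H ∨ x * e ∈ H}
      one_mem' := Or.inl (one_mem H)
      mul_mem' := by
        rintro a b (ha | ha) (hb | hb)
        · exact Or.inl (mul_mem ha hb)
        · refine Or.inr ?_
          rw [← mul_assoc, hcx a ha, mul_assoc]
          exact mul_mem ha hb
        · refine Or.inr ?_
          rw [← mul_assoc]
          exact mul_mem ha hb
        · refine Or.inl ?_
          have e : x * a * (x * b) = a * b := by
            rw [← mul_assoc, ← hcx (x * a) ha, ← mul_assoc, hx, one_mul]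
          rw [← e]
          exact mul_mem ha hb
      inv_mem' := by
        rintro a (ha | ha)
        · exact Or.inl (inv_mem ha)
        · refine Or.inr ?_
          have e : a⁻¹ = (x * a)⁻¹ * x := by group
          rw [e, ← hcx _ (inv_mem ha), ← mul_assoc, hx, one_mul]
          exact inv_mem ha }
  have hcomm : ∀ a ∈ E, ∀ b ∈ E, a * b = b * a := by
    have key : ∀ a ∈ E, ∃ h ∈ H, a = h ∨ a = x * h := by
      rintro a (ha | ha)
      · exact ⟨a, ha, Or.inl rfl⟩
      · exact ⟨x * a, ha, Or.inr (by rw [← mul_assoc, hx, one_mul])⟩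
    intro a ha b hb
    obtain ⟨h, hh, ea⟩ := key a ha
    obtain ⟨k, hk, eb⟩ := key b hb
    have hcc : Commute h k := hc h hh k hk
    have hxh : Commute x h := hcx h hh
    have hxk : Commute x k := hcx k hk
    rcases ea with rfl | rfl <;> rcases eb with rfl | rfl
    · exact hcc
    · exact (hxh.symm.mul_right hcc)
    · exact (hxk.mul_left hcc)
    · exact ((Commute.refl x).mul_right hxk).mul_left (hxh.symm.mul_right hcc)
  refine ⟨E, fun h hh => Or.inl hh, Or.inr (by rw [hx]; exact one_mem H), ?_, ?_, hcomm,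
    fun e he => he⟩
  · let f : H ⊕ H ≃ E :=
      Equiv.ofBijective (Sum.elim (fun h => ⟨h.1, Or.inl h.2⟩)
        (fun h => ⟨x * h.1, Or.inr (by rw [← mul_assoc, hx, one_mul]; exact h.2)⟩)) (by
        constructor
        · rintro (a | a) (b | b) h <;> have h' := congrArg Subtype.val h <;>
            simp only [Sum.elim_inl, Sum.elim_inr] at h'
          · exact congrArg Sum.inl (Subtype.ext h')
          · exact absurd (show x ∈ H by
              rw [eq_mul_inv_of_mul_eq h'.symm]; exact mul_mem a.2 (inv_mem b.2)) hn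
          · exact absurd (show x ∈ H by
              rw [eq_mul_inv_of_mul_eq h']; exact mul_mem b.2 (inv_mem a.2)) hn
          · exact congrArg Sum.inr (Subtype.ext (mul_left_cancel h'))
        · rintro ⟨e, he | he⟩
          · exact ⟨Sum.inl ⟨e, he⟩, rfl⟩
          · exact ⟨Sum.inr ⟨_, he⟩, Subtype.ext (by simp [← mul_assoc, hx])⟩)
    rw [← Nat.card_congr f, Nat.card_sum]
    ring
  · rintro e (he | he)
    · exact hH e he
    · have h := hH _ he
      have hcm : x * e = e * x := hcomm x (Or.inr (by rw [hx]; exact one_mem H)) e (Or.inr he)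
      calc e * e = x * x * (e * e) := by rw [hx, one_mul]
        _ = x * (x * e) * e := by group
        _ = x * (e * x) * e := by rw [hcm]
        _ = x * e * (x * e) := by group
        _ = 1 := h

namespace Frame

variable {A : Subgroup G} {S : Sylow 2 G} (F : Frame (S : Subgroup G) A)

include F

theorem conj_eq_self {m : G} (h : ∀ a ∈ A, m * a * m⁻¹ ∈ (S : Subgroup G)) :
    A.map (MulAut.conj m).toMonoidHom = A := by
  refine F.uniq _ ?_ ⟨⟨?_⟩⟩ ?_
  · rintro _ ⟨a, ha, rfl⟩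
    exact h a ha
  · rintro ⟨_, a, ha, rfl⟩ ⟨_, b, hb, rfl⟩
    exact Subtype.ext (by
      show MulAut.conj m a * MulAut.conj m b = MulAut.conj m b * MulAut.conj m a
      rw [← map_mul, ← map_mul, F.comm a ha b hb])
  · rw [← F.hA]
    exact Nat.card_congr (A.equivMapOfInjective _ (MulAut.conj m).injective).toEquiv.symm

theorem mem_norm_of_conj {m : G} (h : ∀ a ∈ A, m * a * m⁻¹ ∈ (S : Subgroup G)) :
    ∀ a, a ∈ A ↔ m * a * m⁻¹ ∈ A := by
  intro a
  have e := F.conj_eq_self h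
  constructor
  · intro ha
    rw [← e]
    exact ⟨a, ha, rfl⟩
  · intro ha
    rw [← e] at ha
    obtain ⟨b, hb, he⟩ := ha
    rwa [← (MulAut.conj m).injective he]

/-- A 2-group of `G` can be conjugated into `S`. -/
theorem exists_conj_le {Q : Subgroup G} (hQ : IsPGroup 2 Q) :
    ∃ m : G, ∀ q ∈ Q, m * q * m⁻¹ ∈ (S : Subgroup G) := by
  obtain ⟨P, hP⟩ := hQ.exists_le_sylow
  obtain ⟨m, hm⟩ := MulAction.exists_smul_eq G P S
  refine ⟨m, fun q hq => ?_⟩
  rw [← hm, Sylow.coe_subgroup_smul]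
  exact ⟨q, hP hq, rfl⟩

/-- Two conjugates of `A` in a 2-subgroup give an element normalising `A`. -/
theorem exists_normalizing {K : Subgroup G} {g : G} (h1 : A ≤ K)
    (h2 : ∀ a ∈ A, g * a * g⁻¹ ∈ K) :
    ∃ k ∈ K, k * g ∈ normalizer (A : Set G) := by
  classical
  haveI : Fact (Nat.Prime 2) := ⟨Nat.prime_two⟩
  have hAp : IsPGroup 2 A := exists_pow_two F.sq
  let A' : Subgroup G := A.map (MulAut.conj g).toMonoidHom
  have hA' : IsPGroup 2 A' := hAp.map _
  obtain ⟨Q1, hQ1⟩ := (hAp.comap_of_injective K.subtype Subtype.val_injective).exists_le_sylow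
  obtain ⟨Q2, hQ2⟩ := (hA'.comap_of_injective K.subtype Subtype.val_injective).exists_le_sylow
  obtain ⟨k, hk⟩ := MulAction.exists_smul_eq K Q2 Q1
  obtain ⟨m, hm⟩ := F.exists_conj_le (Q1.2.map K.subtype)
  have hmA : ∀ a ∈ A, m * a * m⁻¹ ∈ (S : Subgroup G) := fun a ha =>
    hm a ⟨⟨a, h1 ha⟩, hQ1 ha, rfl⟩
  have hm2 : ∀ a ∈ A, (m * (k * g)) * a * (m * (k * g))⁻¹ ∈ (S : Subgroup G) := by
    intro a ha
    have hmem : k * (⟨g * a * g⁻¹, h2 a ha⟩ : K) * k⁻¹ ∈ Q1 := by
      rw [← hk]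
      exact ⟨⟨g * a * g⁻¹, h2 a ha⟩, hQ2 ⟨a, ha, rfl⟩, rfl⟩
    have := hm _ ⟨_, hmem, rfl⟩
    simpa [mul_assoc] using this
  refine ⟨k, k.2, mem_normalizer_iff.2 fun a => ?_⟩
  have e1 := F.mem_norm_of_conj hmA
  have e2 := F.mem_norm_of_conj hm2
  rw [e2 a]
  constructor
  · intro h
    exact (e1 _).2 (by simpa [mul_assoc] using h)
  · intro h
    have := (e1 _).1 h
    simpa [mul_assoc] using this

theorem involution_spec {x : G} (hx : x ∈ (S : Subgroup G)) (h2 : x * x = 1) (hn : x ∉ A) :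
    ∃ i, F.Acts x i ∧ i < 8 ∧ isInv i = true := by
  obtain ⟨i, hi, h0⟩ := F.decompose hx
  refine ⟨i, hi, hi.1, ?_⟩
  simp only [isInv, Bool.and_eq_true, Bool.not_eq_true', List.all_eq_true, List.mem_range]
  refine ⟨?_, fun n hn => ?_⟩
  · cases hb : Nat.beq i 0
    · rfl
    · exact absurd (h0 (Nat.eq_of_beq_eq_true hb)) hn
  · have e : act i (act i n) = n := by
      obtain ⟨k, hk, h⟩ := F.acts_mul hi hi
      rw [h2] at hk
      rw [h n hn, F.acts_unique hk (F.acts_of_mem (one_mem A))]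
      rfl
    simp [Nat.beq_eq, e]

/-- The centralised part of `A` is in bijection with the fixed vectors. -/
theorem card_le_fix {x y : G} {i j : ℕ} (hx : F.Acts x i) (hy : F.Acts y j) (B : Subgroup G)
    (hB : B ≤ A) (hBx : ∀ b ∈ B, x * b = b * x) (hBy : ∀ b ∈ B, y * b = b * y) :
    Nat.card B ≤ (fixList i j).length ∧ ∀ b ∈ B, ∃ n ∈ fixList i j, enc F.v n = b := by
  have h : ∀ b ∈ B, ∃ n ∈ fixList i j, enc F.v n = b := by
    intro b hb
    obtain ⟨n, hn, rfl⟩ := F.exists_enc (hB hb)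
    refine ⟨n, mem_fixList.2 ⟨hn, ?_, ?_⟩, rfl⟩
    · refine F.enc_inj (act_spec hx.1 hn).1 hn ?_
      rw [← hx.2 n hn, hBx _ hb, mul_assoc, mul_inv_cancel, mul_one]
    · refine F.enc_inj (act_spec hy.1 hn).1 hn ?_
      rw [← hy.2 n hn, hBy _ hb, mul_assoc, mul_inv_cancel, mul_one]
  refine ⟨?_, h⟩
  choose f hf he using fun b : B => h b b.2
  let g : B → Fin (fixList i j).length := fun b =>
    ⟨(fixList i j).idxOf (f b), List.idxOf_lt_length_iff.2 (hf b)⟩
  refine le_trans (Nat.card_le_card_of_injective g ?_) (le_of_eq (Nat.card_fin _))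
  intro a b hab
  have e := congrArg Fin.val hab
  rw [List.idxOf_inj (hf a)] at e
  exact Subtype.ext (by rw [← he a, ← he b, e])

/-- An elementary abelian subgroup of order 32 of `S` is normalised by `A`. -/
theorem conj_mem_thirty_two {E : Subgroup G} (hE : E ≤ (S : Subgroup G))
    (hEc : ∀ a ∈ E, ∀ b ∈ E, a * b = b * a) (hE2 : ∀ e ∈ E, e * e = 1)
    (hE32 : Nat.card E = 32) : ∀ a ∈ A, ∀ e ∈ E, a * e * a⁻¹ ∈ E := by
  classical
  intro a ha e he
  by_cases heA : e ∈ A
  · rwa [F.comm a ha e heA, mul_assoc, mul_inv_cancel, mul_one]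
  haveI : Fintype G := Fintype.ofFinite G
  set B := E ⊓ A with hB
  have hd : ∀ x : E, ∃ i, F.Acts x.1 i ∧ (i = 0 → x.1 ∈ A) := fun x => F.decompose (hE x.2)
  choose q hq hq0 using hd
  have hfib : ∀ x y : E, q x = q y → (x : G) * y ∈ B := by
    intro x y hxy
    refine ⟨mul_mem x.2 y.2, ?_⟩
    have hinv : (x : G) * y ∈ (S : Subgroup G) := hE (mul_mem x.2 y.2)
    obtain ⟨k, hk, h⟩ := F.acts_mul (hq x) (hq y)
    obtain ⟨k', hk', h'⟩ := F.acts_mul (hq x) (hq x)
    rw [hE2 x x.2] at hk'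
    have hk0 : k' = 0 := F.acts_unique hk' (F.acts_of_mem (one_mem A))
    obtain ⟨i, hi, hi0⟩ := F.decompose hinv
    refine hi0 ((F.acts_unique hi hk).trans (act_inj hk.1 (by norm_num) fun n hn => ?_))
    rw [← h n hn, ← hxy, h' n hn, hk0]
  let I : Finset ℕ := Finset.univ.image q
  have hI : I ⊆ Finset.range 8 := fun i hi => by
    obtain ⟨x, -, rfl⟩ := Finset.mem_image.1 hi
    exact Finset.mem_range.2 (hq x).1
  have hcount : Nat.card E ≤ I.card * Nat.card B := by
    have hr : ∀ i : I, ∃ x : E, q x = i := fun i => by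
      obtain ⟨x, -, h⟩ := Finset.mem_image.1 i.2
      exact ⟨x, h⟩
    choose r hr using hr
    let f : E → I × B := fun x =>
      let i : I := ⟨q x, Finset.mem_image_of_mem q (Finset.mem_univ x)⟩
      (i, ⟨(r i : G) * x, hfib _ _ (hr i)⟩)
    have hf : Function.Injective f := by
      intro x y hxy
      have h1 := congrArg Prod.fst hxy
      have h2 := congrArg Subtype.val (congrArg Prod.snd hxy)
      simp only [f] at h1 h2
      rw [h1] at h2
      exact Subtype.ext (mul_left_cancel h2)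
    have := Nat.card_le_card_of_injective f hf
    rwa [Nat.card_prod, Nat.card_eq_fintype_card (α := I), Fintype.card_coe] at this
  have hcm : ∀ b ∈ B, e * b = b * e := fun b hb => hEc e he b hb.1
  obtain ⟨i, hi, hi8, hinv⟩ := F.involution_spec (hE he) (hE2 e he) heA
  have hcomm : ∀ n < 64, a = enc F.v n → a * e * a⁻¹ * e = enc F.v (n ^^^ act i n) := by
    rintro n hn rfl
    rw [F.enc_xor, ← hi.2 n hn]
    have h1 : (enc F.v n)⁻¹ = enc F.v n := inv_eq_of_mul_eq_one_right (F.sq _ (F.enc_mem n))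
    have h3 : e⁻¹ = e := inv_eq_of_mul_eq_one_right (hE2 e he)
    rw [h1, h3]
    group
  suffices ∀ n < 64, enc F.v (n ^^^ act i n) ∈ B by
    obtain ⟨n, hn, h⟩ := F.exists_enc ha
    have h' := (this n hn).1
    rw [← hcomm n hn h.symm] at h'
    have := mul_mem h' he
    rwa [mul_assoc _ e e, hE2 e he, mul_one] at this
  have hfull : ∀ {x y : G} {j k : ℕ}, F.Acts x j → F.Acts y k → (∀ b ∈ B, x * b = b * x) →
      (∀ b ∈ B, y * b = b * y) → (fixList j k).length ≤ Nat.card B →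
      ∀ n, n ∈ fixList j k → enc F.v n ∈ B := by
    intro x y j k hj hk hxB hyB hlen n hn
    obtain ⟨-, h⟩ := F.card_le_fix hj hk B inf_le_right hxB hyB
    choose f hf he using fun b : B => h b b.2
    let L := (fixList j k).toFinset
    let g : B → L := fun b => ⟨f b, List.mem_toFinset.2 (hf b)⟩
    have hg : Function.Injective g := fun b c hbc => Subtype.ext (by
      rw [← he b, ← he c, show f b = f c from congrArg Subtype.val hbc])
    have hbij : Function.Bijective g := by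
      refine (Fintype.bijective_iff_injective_and_card g).2 ⟨hg, ?_⟩
      apply le_antisymm (Fintype.card_le_of_injective g hg)
      rw [Fintype.card_coe, List.toFinset_card_of_nodup (fixList_nodup j k),
        ← Nat.card_eq_fintype_card]
      exact hlen
    obtain ⟨b, hb⟩ := hbij.2 ⟨n, List.mem_toFinset.2 hn⟩
    rw [← show f b = n from congrArg Subtype.val hb, he b]
    exact b.2
  have hlt : ∀ n < 64, n ^^^ act i n < 64 := fun n hn => xor_lt hn (act_spec hi8 hn).1
  have hfx : ∀ n < 64, act i (n ^^^ act i n) = n ^^^ act i n := by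
    intro n hn
    obtain ⟨x, hx⟩ : ∃ x, x = enc F.v n := ⟨_, rfl⟩
    refine F.enc_inj (act_spec hi8 (hlt n hn)).1 (hlt n hn) ?_
    rw [← hi.2 _ (hlt n hn), F.enc_xor, ← hi.2 n hn]
    have h3 : e⁻¹ = e := inv_eq_of_mul_eq_one_right (hE2 e he)
    rw [h3, ← hx]
    have hc : e * x * e ∈ A := by
      have := F.normal (hE he) (hx ▸ F.enc_mem n)
      rwa [h3] at this
    calc e * (x * (e * x * e)) * e = e * ((e * x * e) * x) * e := by
          rw [F.comm x (hx ▸ F.enc_mem n) _ hc]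
      _ = (e * e) * (x * (e * x * e)) := by group
      _ = x * (e * x * e) := by rw [hE2 e he, one_mul]
  have hB16 : Nat.card B ≤ 16 := (fix_spec hi8 hinv).1 ▸
    (F.card_le_fix hi hi B inf_le_right hcm hcm).1
  by_cases hBbig : 9 ≤ Nat.card B
  · have h16 : 16 ≤ Nat.card B := by
      haveI : Fact (Nat.Prime 2) := ⟨Nat.prime_two⟩
      obtain ⟨m, hm⟩ := IsPGroup.iff_card.1 (exists_pow_two (E := B) fun x hx => hE2 x hx.1)
      rw [hm] at hBbig ⊢
      have : 4 ≤ m := by
        by_contra hcon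
        have := Nat.pow_le_pow_right (show 0 < 2 by norm_num) (show m ≤ 3 by omega)
        omega
      exact Nat.pow_le_pow_right (show 0 < 2 by norm_num) this
    intro n hn
    exact hfull hi hi hcm hcm ((fix_spec hi8 hinv).1.le.trans h16) _
      (mem_fixList.2 ⟨hlt n hn, hfx n hn, hfx n hn⟩)
  have hB8 : Nat.card B ≤ 8 := by omega
  by_cases h8 : Nat.card B = 8
  · -- another involution of `E` with different action
    have : ∃ f : E, (f : G) ∉ A ∧ q f ≠ i := by
      by_contra hno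
      push Not at hno
      have hsub : I ⊆ {0, i} := by
        intro j hj
        obtain ⟨x, -, rfl⟩ := Finset.mem_image.1 hj
        by_cases hx : (x : G) ∈ A
        · exact Finset.mem_insert.2 (Or.inl (F.acts_unique (hq x) (F.acts_of_mem hx)))
        · exact Finset.mem_insert.2 (Or.inr (Finset.mem_singleton.2 (hno x hx)))
      have h2 := (Finset.card_le_card hsub).trans (Finset.card_le_two)
      nlinarith
    obtain ⟨f, hfA, hfi⟩ := this
    obtain ⟨j, hj, hj8, hjinv⟩ := F.involution_spec (hE f.2) (hE2 f f.2) hfA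
    have hne : i ≠ j := fun h => hfi ((F.acts_unique (hq f) hj).trans h.symm)
    have hcij : commI i j = true := by
      simp only [commI, List.all_eq_true, List.mem_range]
      intro n hn
      have e1 := hi.2 _ (act_spec hj8 hn).1
      have e2 := hj.2 _ (act_spec hi8 hn).1
      rw [← hj.2 n hn] at e1
      rw [← hi.2 n hn] at e2
      have : enc F.v (act i (act j n)) = enc F.v (act j (act i n)) := by
        rw [← e1, ← e2]
        have := hEc e he f f.2
        calc e * ((f : G) * enc F.v n * (f : G)⁻¹) * e⁻¹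
            = (e * f) * enc F.v n * (e * f)⁻¹ := by group
          _ = ((f : G) * e) * enc F.v n * ((f : G) * e)⁻¹ := by rw [this]
          _ = _ := by group
      simp [Nat.beq_eq, F.enc_inj (act_spec hi8 (act_spec hj8 hn).1).1
        (act_spec hj8 (act_spec hi8 hn).1).1 this]
    obtain ⟨hl, hfj⟩ := (fix_spec hi8 hinv).2 j hj8 hjinv hne hcij
    intro n hn
    exact hfull hi hj hcm (fun b hb => hEc f f.2 b hb.1) (h8 ▸ hl) _
      (mem_fixList.2 ⟨hlt n hn, hfx n hn, hfj n hn⟩)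
  · -- then all eight actions occur and would commute
    exfalso
    haveI : Fact (Nat.Prime 2) := ⟨Nat.prime_two⟩
    obtain ⟨m, hm⟩ := IsPGroup.iff_card.1 (exists_pow_two (E := B) fun x hx => hE2 x hx.1)
    have hB4 : Nat.card B ≤ 4 := by
      rcases Nat.lt_or_ge m 3 with hm3 | hm3
      · have := Nat.pow_le_pow_right (show 0 < 2 by norm_num) (show m ≤ 2 by omega)
        omega
      · have := Nat.pow_le_pow_right (show 0 < 2 by norm_num) hm3
        omega
    have h8c := Finset.card_le_card hI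
    rw [Finset.card_range] at h8c
    have hall : I = Finset.range 8 := Finset.eq_of_subset_of_card_le hI (by
      rw [Finset.card_range]
      nlinarith)
    obtain ⟨x, -, hx⟩ := Finset.mem_image.1 (hall ▸ Finset.mem_range.2 (show 1 < 8 by norm_num))
    obtain ⟨y, -, hy⟩ := Finset.mem_image.1 (hall ▸ Finset.mem_range.2 (show 2 < 8 by norm_num))
    have hx1 := hx ▸ hq x
    have hy2 := hy ▸ hq y
    obtain ⟨k, hk, hk'⟩ := F.acts_mul hx1 hy2
    obtain ⟨l, hl, hl'⟩ := F.acts_mul hy2 hx1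
    rw [hEc x x.2 y y.2] at hk
    have h := (hk' 4 (by norm_num)).trans
      ((congrArg (act · 4) (F.acts_unique hk hl)).trans (hl' 4 (by norm_num)).symm)
    exact sig_tau_ne h

/-- An elementary abelian subgroup of order 32 of `S` with a conjugate in `A` lies in `A`. -/
theorem le_of_conj_le {E : Subgroup G} (hE : E ≤ (S : Subgroup G))
    (hEc : ∀ a ∈ E, ∀ b ∈ E, a * b = b * a) (hE2 : ∀ e ∈ E, e * e = 1) (hE32 : Nat.card E = 32)
    {g : G} (hg : ∀ e ∈ E, g * e * g⁻¹ ∈ A) : E ≤ A := by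
  let K := normalizer (E : Set G)
  have hn := F.conj_mem_thirty_two hE hEc hE2 hE32
  have h1 : A ≤ K := fun a ha => mem_normalizer_iff.2 fun e =>
    ⟨fun he => hn a ha e he, fun he => by
      have := hn a⁻¹ (inv_mem ha) _ he
      simpa [mul_assoc] using this⟩
  have h2 : ∀ a ∈ A, g⁻¹ * a * g⁻¹⁻¹ ∈ K := by
    intro a ha
    refine mem_normalizer_iff.2 fun e => ?_
    have key : ∀ b ∈ A, ∀ e ∈ E, (g⁻¹ * b * g) * e * (g⁻¹ * b * g)⁻¹ = e := by
      intro b hb e he
      calc (g⁻¹ * b * g) * e * (g⁻¹ * b * g)⁻¹ = g⁻¹ * (b * (g * e * g⁻¹)) * b⁻¹ * g := by group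
        _ = g⁻¹ * ((g * e * g⁻¹) * b) * b⁻¹ * g := by rw [F.comm b hb _ (hg e he)]
        _ = e := by group
    rw [inv_inv]
    constructor
    · intro he
      rw [key a ha e he]
      exact he
    · intro he
      have := key a⁻¹ (inv_mem ha) _ he
      group at this ⊢
      have h3 : (g⁻¹ * a * g) * e * (g⁻¹ * a * g)⁻¹ = e := by
        simpa [mul_assoc] using this.symm
      rwa [h3] at he
  obtain ⟨k, hk, hkg⟩ := F.exists_normalizing h1 h2
  intro e he
  -- `k g⁻¹` normalises `A` and maps a conjugate of `e` in `A` to a conjugate of `e`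
  have hy : k⁻¹ * e * k ∈ E := by
    have := (mem_normalizer_iff.1 (inv_mem hk) e).1 he
    simpa using this
  have := (mem_normalizer_iff.1 hkg _).1 (hg _ hy)
  simpa [mul_assoc] using this

theorem exists_centralizer_thirty_two {x : G} (hx : x ∈ (S : Subgroup G)) (h2 : x * x = 1)
    (hn : x ∉ A) :
    ∃ B : Subgroup G, B ≤ A ∧ Nat.card B = 16 ∧ (∀ a, a ∈ B ↔ a ∈ A ∧ x * a = a * x) ∧
      ∃ E : Subgroup G, B ≤ E ∧ x ∈ E ∧ E ≤ (S : Subgroup G) ∧ Nat.card E = 32 ∧
        (∀ e ∈ E, e * e = 1) ∧ (∀ a ∈ E, ∀ b ∈ E, a * b = b * a) ∧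
        ∀ e ∈ E, e ∈ A → e ∈ B := by
  classical
  obtain ⟨i, hi, hi8, hinv⟩ := F.involution_spec hx h2 hn
  let B : Subgroup G := A ⊓ centralizer {x}
  have hmem : ∀ a, a ∈ B ↔ a ∈ A ∧ x * a = a * x := fun a => by
    simp [B, mem_inf, mem_centralizer_singleton_iff, eq_comm]
  have hB : Nat.card B = 16 := by
    have h1 := (F.card_le_fix hi hi B inf_le_left (fun b hb => ((hmem b).1 hb).2)
      (fun b hb => ((hmem b).1 hb).2)).1
    rw [(fix_spec hi8 hinv).1] at h1
    refine le_antisymm h1 ?_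
    have hlen := (fix_spec hi8 hinv).1
    rw [← List.toFinset_card_of_nodup (fixList_nodup i i), ← Fintype.card_coe,
      ← Nat.card_eq_fintype_card] at hlen
    rw [← hlen]
    refine Nat.card_le_card_of_injective (fun n : (fixList i i).toFinset =>
      (⟨enc F.v n, (hmem _).2 ⟨F.enc_mem _, ?_⟩⟩ : B)) ?_
    · obtain ⟨h64, hfi, -⟩ := mem_fixList.1 (List.mem_toFinset.1 n.2)
      have := hi.2 n h64
      rw [hfi] at this
      exact mul_inv_eq_iff_eq_mul.1 this
    · intro n m h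
      exact Subtype.ext (F.enc_inj (mem_fixList.1 (List.mem_toFinset.1 n.2)).1
        (mem_fixList.1 (List.mem_toFinset.1 m.2)).1 (congrArg Subtype.val h))
  obtain ⟨E, hBE, hxE, hcard, hsq, hc, hsplit⟩ := card_sup_zpowers (H := B) h2
    (fun h => hn h.1) (fun b hb => F.sq b hb.1) (fun a ha b hb => F.comm a ha.1 b hb.1)
    (fun b hb => ((hmem b).1 hb).2)
  refine ⟨B, inf_le_left, hB, hmem, E, hBE, hxE, ?_, by rw [hcard, hB], hsq, hc, ?_⟩
  · intro e he
    rcases hsplit e he with h | h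
    · exact F.hle h.1
    · have := mul_mem hx (F.hle h.1)
      rwa [← mul_assoc, h2, one_mul] at this
  · intro e he heA
    exact (hmem e).2 ⟨heA, hc x hxE e he⟩

/-- The normaliser of `C_A(x) ⟨x⟩` normalises `C_A(x)`. -/
theorem conj_mem_centralized {x : G} (hx : x ∈ (S : Subgroup G)) (h2 : x * x = 1) (hn : x ∉ A)
    {B E : Subgroup G} (hBA : B ≤ A) (hB : Nat.card B = 16)
    (hmem : ∀ a, a ∈ B ↔ a ∈ A ∧ x * a = a * x) (hBE : B ≤ E) (hxE : x ∈ E)
    (hES : E ≤ (S : Subgroup G)) (hE32 : Nat.card E = 32)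
    (hsq : ∀ e ∈ E, e * e = 1) (hc : ∀ a ∈ E, ∀ b ∈ E, a * b = b * a)
    (hEA : ∀ e ∈ E, e ∈ A → e ∈ B) {h : G} (hh : h ∈ normalizer (E : Set G)) :
    ∀ b ∈ B, h * b * h⁻¹ ∈ B := by
  classical
  haveI : Fintype G := Fintype.ofFinite G
  haveI : Fact (Nat.Prime 2) := ⟨Nat.prime_two⟩
  let B' : Subgroup G := B.map (MulAut.conj h).toMonoidHom
  have hB'E : B' ≤ E := by
    rintro _ ⟨b, hb, rfl⟩
    exact (mem_normalizer_iff.1 hh b).1 (hBE hb)
  have hB' : Nat.card B' = 16 := by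
    rw [← hB]
    exact Nat.card_congr (B.equivMapOfInjective _ (MulAut.conj h).injective).toEquiv.symm
  by_contra hcon
  push Not at hcon
  obtain ⟨b₀, hb₀, hb₀'⟩ := hcon
  have hne : ¬ B' ≤ B := fun hle => hb₀' (hle ⟨b₀, hb₀, rfl⟩)
  have hidx : (B'.subgroupOf E).index = 2 := by
    have h1 := (B'.subgroupOf E).card_mul_index
    rw [Nat.card_congr (subgroupOfEquivOfLe hB'E).toEquiv, hB', hE32] at h1
    omega
  have hxi : x⁻¹ = x := inv_eq_of_mul_eq_one_right h2
  have hcE := F.conj_mem_thirty_two hES hc hsq hE32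
  have hA16 : ∃ a1 ∈ A, ∃ a2 ∈ A, a1 ∉ B ∧ a2 ∉ B ∧ a1 * a2 ∉ B := by
    have hbig : ∀ C : Subgroup G, Nat.card C ≤ 32 → ∃ a ∈ A, a ∉ C := by
      intro C hC
      by_contra hA
      push Not at hA
      have hle : Nat.card A ≤ Nat.card C := Subgroup.card_le_of_le hA
      rw [F.hA] at hle
      omega
    obtain ⟨a1, ha1, hn1⟩ := hbig B (by omega)
    obtain ⟨C, hBC, ha1C, hC, -, -, hsplit⟩ := card_sup_zpowers (H := B) (F.sq a1 ha1) hn1
      (fun b hb => F.sq b (hBA hb)) (fun a ha b hb => F.comm a (hBA ha) b (hBA hb))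
      (fun b hb => F.comm a1 ha1 b (hBA hb))
    obtain ⟨a2, ha2, hn2⟩ := hbig C (by omega)
    refine ⟨a1, ha1, a2, ha2, hn1, fun h => hn2 (hBC h), fun h => hn2 ?_⟩
    have := mul_mem ha1C (hBC h)
    rwa [← mul_assoc, F.sq a1 ha1, one_mul] at this
  let c : G → G := fun a => x * a * x⁻¹ * a⁻¹
  have hcB : ∀ a ∈ A, c a ∈ B := by
    intro a ha
    have h' : x * (a * x⁻¹ * a⁻¹) ∈ E := mul_mem hxE (hcE a ha _ (inv_mem hxE))
    have hA' : c a ∈ A := mul_mem (F.normal hx ha) (inv_mem ha)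
    exact hEA _ (by simpa [c, mul_assoc] using h') hA'
  have hcmul : ∀ a ∈ A, ∀ b ∈ A, c (a * b) = c a * c b := by
    intro a ha b hb
    calc c (a * b) = (x * a * x⁻¹) * ((x * b * x⁻¹ * b⁻¹) * a⁻¹) := by simp only [c]; group
      _ = (x * a * x⁻¹) * (a⁻¹ * (x * b * x⁻¹ * b⁻¹)) := by
          rw [F.comm _ (hBA (hcB b hb)) _ (inv_mem ha)]
      _ = c a * c b := by simp only [c]; group
  obtain ⟨a1, ha1, a2, ha2, hn1, hn2, hn12⟩ := hA16
  obtain ⟨a, ha, hanB, haw⟩ : ∃ a ∈ A, a ∉ B ∧ c a ∈ B' := by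
    by_cases hw1 : c a1 ∈ B'
    · exact ⟨a1, ha1, hn1, hw1⟩
    by_cases hw2 : c a2 ∈ B'
    · exact ⟨a2, ha2, hn2, hw2⟩
    refine ⟨a1 * a2, mul_mem ha1 ha2, hn12, ?_⟩
    rw [hcmul a1 ha1 a2 ha2]
    have := (Subgroup.mul_mem_iff_of_index_two hidx
      (a := ⟨c a1, hBE (hcB a1 ha1)⟩) (b := ⟨c a2, hBE (hcB a2 ha2)⟩)).2
      (iff_of_false hw1 hw2)
    exact this
  set w := c a with hw
  -- a conjugate of an element of `A` centralising `B'`
  set b := h * a * h⁻¹ with hb
  have hbB' : ∀ y ∈ B', b * y = y * b := by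
    rintro _ ⟨y, hy, rfl⟩
    show h * a * h⁻¹ * (h * y * h⁻¹) = h * y * h⁻¹ * (h * a * h⁻¹)
    calc h * a * h⁻¹ * (h * y * h⁻¹) = h * (a * y) * h⁻¹ := by group
      _ = h * (y * a) * h⁻¹ := by rw [F.comm a ha y (hBA hy)]
      _ = _ := by group
  have hNE : ∀ a' ∈ A, a' ∈ normalizer (E : Set G) := fun a' ha' => mem_normalizer_iff.2 fun e =>
    ⟨fun he => hcE a' ha' e he, fun he => by
      have := hcE a'⁻¹ (inv_mem ha') _ he
      simpa [mul_assoc] using this⟩
  have haN := hNE a ha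
  have hbN : b ∈ normalizer (E : Set G) := mul_mem (mul_mem hh haN) (inv_mem hh)
  have hb2 : b * b = 1 := by
    rw [hb, show h * a * h⁻¹ * (h * a * h⁻¹) = h * (a * a) * h⁻¹ by group, F.sq a ha, mul_one,
      mul_inv_cancel]
  -- the elements fixing `w` that act on `E` modulo `⟨w⟩` as `1` or as `b`
  have hww : w * w = 1 := F.sq _ (hBA (hcB a ha))
  have hwE : w ∈ E := hBE (hcB a ha)
  have hwA : a * w = w * a := F.comm a ha w (hBA (hcB a ha))
  have hwb : b * w = w * b := hbB' w haw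
  let M : Subgroup G := (normalizer (E : Set G)) ⊓ centralizer {w}
  have hMw : ∀ m ∈ M, m * w * m⁻¹ = w := fun m hm => by
    rw [mem_centralizer_singleton_iff.1 hm.2]
    group
  have hME : ∀ m ∈ M, ∀ e ∈ E, m * e * m⁻¹ ∈ E := fun m hm e he =>
    (mem_normalizer_iff.1 hm.1 e).1 he
  let R : G → G → Prop := fun m n => ∀ e ∈ E,
    m * e * m⁻¹ = n * e * n⁻¹ ∨ m * e * m⁻¹ = n * e * n⁻¹ * w
  have hR : ∀ {m m' n n' : G}, m ∈ M → m' ∈ M → n ∈ M → n' ∈ M → R m n → R m' n' →
      R (m * m') (n * n') := by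
    intro m m' n n' hm hm' hn hn' h1 h1' e he
    have e1 : m * m' * e * (m * m')⁻¹ = m * (m' * e * m'⁻¹) * m⁻¹ := by group
    have e2 : n * n' * e * (n * n')⁻¹ = n * (n' * e * n'⁻¹) * n⁻¹ := by group
    rw [e1, e2]
    have hy := hME n' hn' e he
    rcases h1' e he with h3 | h3 <;> rw [h3]
    · exact h1 _ hy
    · have e3 : m * (n' * e * n'⁻¹ * w) * m⁻¹ = m * (n' * e * n'⁻¹) * m⁻¹ * w := by
        conv_rhs => rw [← hMw m hm]
        group
      rw [e3]
      rcases h1 _ hy with h4 | h4 <;> rw [h4]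
      · exact Or.inr rfl
      · exact Or.inl (by rw [mul_assoc, hww, mul_one])
  have hRinv : ∀ {m n : G}, m ∈ M → n ∈ M → R m n → R m⁻¹ n⁻¹ := by
    intro m n hm hn h1 e he
    have hm' := inv_mem hm
    have hy := hME m⁻¹ hm' e he
    rcases h1 _ hy with h3 | h3
    · refine Or.inl ?_
      have : n⁻¹ * (m * (m⁻¹ * e * m⁻¹⁻¹) * m⁻¹) * n = m⁻¹ * e * m⁻¹⁻¹ := by
        rw [h3]; group
      rw [← this]
      group
    · refine Or.inr ?_
      have : n⁻¹ * (m * (m⁻¹ * e * m⁻¹⁻¹) * m⁻¹) * n = m⁻¹ * e * m⁻¹⁻¹ * w := by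
        rw [h3]
        conv_rhs => rw [← hMw n⁻¹ (inv_mem hn)]
        group
      have e3 : n⁻¹ * e * n⁻¹⁻¹ = m⁻¹ * e * m⁻¹⁻¹ * w := by
        rw [← this]; group
      rw [e3]
      simp [mul_assoc, hww]
  have hbM : b ∈ M := ⟨hbN, mem_centralizer_singleton_iff.2 hwb⟩
  have haM : a ∈ M := ⟨haN, mem_centralizer_singleton_iff.2 hwA⟩
  have hb1 : b⁻¹ = b := inv_eq_of_mul_eq_one_right hb2
  let L : Subgroup G :=
    { carrier := {m | m ∈ M ∧ (R m 1 ∨ R m b)}
      one_mem' := ⟨one_mem M, Or.inl fun e he => Or.inl rfl⟩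
      mul_mem' := by
        rintro m n ⟨hm, h1 | h1⟩ ⟨hn, h3 | h3⟩ <;> refine ⟨mul_mem hm hn, ?_⟩
        · exact Or.inl (by have := hR hm hn (one_mem M) (one_mem M) h1 h3; rwa [one_mul] at this)
        · exact Or.inr (by have := hR hm hn (one_mem M) hbM h1 h3; rwa [one_mul] at this)
        · exact Or.inr (by have := hR hm hn hbM (one_mem M) h1 h3; rwa [mul_one] at this)
        · exact Or.inl (by have := hR hm hn hbM hbM h1 h3; rwa [hb2] at this)
      inv_mem' := by
        rintro m ⟨hm, h1 | h1⟩ <;> refine ⟨inv_mem hm, ?_⟩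
        · exact Or.inl (by have := hRinv hm (one_mem M) h1; rwa [inv_one] at this)
        · exact Or.inr (by have := hRinv hm hbM h1; rwa [hb1] at this) }
  have haL : a ∈ L := by
    refine ⟨haM, Or.inl fun e he => ?_⟩
    show a * e * a⁻¹ = 1 * e * 1⁻¹ ∨ a * e * a⁻¹ = 1 * e * 1⁻¹ * w
    rw [one_mul, inv_one, mul_one]
    by_cases heA : e ∈ A
    · exact Or.inl (by rw [F.comm a ha e heA]; group)
    · -- `e` lies in `x B`
      refine Or.inr ?_
      have hexB : x * e ∈ B := by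
        by_contra hxe
        have hidxB : (B.subgroupOf E).index = 2 := by
          have h1 := (B.subgroupOf E).card_mul_index
          rw [Nat.card_congr (subgroupOfEquivOfLe hBE).toEquiv, hB, hE32] at h1
          omega
        exact hxe ((Subgroup.mul_mem_iff_of_index_two hidxB (a := ⟨x, hxE⟩) (b := ⟨e, he⟩)).2
          (iff_of_false (fun h => hn (hBA h)) (fun h => heA (hBA h))))
      set y := x * e
      have hey : e = x * y := by simp [y, ← mul_assoc, h2]
      rw [hey, hw]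
      simp only [c]
      rw [hxi]
      calc a * (x * y) * a⁻¹ = a * x * (y * a⁻¹) := by group
        _ = a * x * (a⁻¹ * y) := by rw [F.comm y (hBA hexB) a⁻¹ (inv_mem ha)]
        _ = (a * x * a⁻¹) * y := by group
        _ = x * (x * a * x * a⁻¹) * y := by
            rw [show x * (x * a * x * a⁻¹) = (x * x) * a * x * a⁻¹ by group, h2, one_mul]
        _ = x * (y * (x * a * x * a⁻¹)) := by
            rw [mul_assoc x, F.comm y (hBA hexB) _ (hBA (by simpa [c, hxi] using hcB a ha))]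
        _ = x * y * (x * a * x * a⁻¹) := by group
  have hbL : b ∈ L := ⟨hbM, Or.inr fun e _ => Or.inl rfl⟩
  let C : Subgroup G := centralizer (E : Set G)
  haveI hCn : (C.subgroupOf L).Normal := by
    constructor
    intro y hy m
    rw [mem_subgroupOf] at hy ⊢
    show (m : G) * y * (m : G)⁻¹ ∈ C
    rw [mem_centralizer_iff]
    intro e he
    have hm : (m : G)⁻¹ * e * (m : G) ∈ E := by
      have := hME _ (inv_mem m.2.1) e he
      simpa using this
    have := mem_centralizer_iff.1 hy _ hm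
    calc e * ((m : G) * y * (m : G)⁻¹) = (m : G) * (((m : G)⁻¹ * e * m) * y) * (m : G)⁻¹ := by group
      _ = (m : G) * (y * ((m : G)⁻¹ * e * m)) * (m : G)⁻¹ := by rw [this]
      _ = _ := by group
  have hL4 : ∀ m ∈ L, m ^ 4 ∈ C := by
    rintro m ⟨hm, hm'⟩
    have h1 : R (m * m) 1 := by
      rcases hm' with h | h
      · have := hR hm hm (one_mem M) (one_mem M) h h; rwa [mul_one] at this
      · have := hR hm hm hbM hbM h h; rwa [hb2] at this
    rw [mem_centralizer_iff]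
    intro e he
    have hmm := mul_mem hm hm
    have key : (m * m) * ((m * m) * e * (m * m)⁻¹) * (m * m)⁻¹ = e := by
      rcases h1 e he with h3 | h3 <;> rw [h3, one_mul, inv_one, mul_one]
      · simpa using h3
      · rw [show m * m * (e * w) * (m * m)⁻¹ = (m * m * e * (m * m)⁻¹) * (m * m * w * (m * m)⁻¹) by
          group, hMw _ hmm, h3, one_mul, inv_one, mul_one, mul_assoc, hww, mul_one]
    have : m ^ 4 * e * (m ^ 4)⁻¹ = e := by
      calc m ^ 4 * e * (m ^ 4)⁻¹ = (m * m) * ((m * m) * e * (m * m)⁻¹) * (m * m)⁻¹ := by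
            rw [show m ^ 4 = (m * m) * (m * m) by simp [pow_succ, mul_assoc]]; group
        _ = e := key
    exact (mul_inv_eq_iff_eq_mul.1 this).symm
  have hEL : E ≤ L := by
    intro e he
    refine ⟨⟨le_normalizer he, mem_centralizer_singleton_iff.2 (hc e he w hwE)⟩,
      Or.inl fun e' he' => Or.inl ?_⟩
    show e * e' * e⁻¹ = 1 * e' * 1⁻¹
    rw [hc e he e' he']
    group
  obtain ⟨Q, hQ⟩ := (exists_pow_two (E := E) hsq).comap_of_injective L.subtype
    Subtype.val_injective |>.exists_le_sylow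
  obtain ⟨Qa, hQa⟩ := ((IsPGroup.of_card (p := 2) (n := 1) (G := zpowers (⟨a, haL⟩ : L)) (by
    rw [Nat.card_zpowers, pow_one]
    refine orderOf_eq_prime (p := 2) (Subtype.ext (by simp [pow_two, F.sq a ha])) fun h => ?_
    exact hanB (by rw [show a = 1 from congrArg Subtype.val h]; exact one_mem B)))).exists_le_sylow
  obtain ⟨Qb, hQb⟩ := ((IsPGroup.of_card (p := 2) (n := 1) (G := zpowers (⟨b, hbL⟩ : L)) (by
    rw [Nat.card_zpowers, pow_one]
    refine orderOf_eq_prime (p := 2) (Subtype.ext (by simp [pow_two, hb2])) fun h => ?_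
    have h1 : b = 1 := congrArg Subtype.val h
    rw [hb, conj_eq_one_iff] at h1
    exact hanB (by rw [h1]; exact one_mem B)))).exists_le_sylow
  obtain ⟨y, hy⟩ := MulAction.exists_smul_eq L Qb Qa
  -- choose `y` inside `C`, as `L/C` is a 2-group
  have hLC : ∀ m : L, ∃ u ∈ Qa, ∃ v : L, (v : G) ∈ C ∧ m = u * v := by
    intro m
    have hpq : IsPGroup 2 (L ⧸ C.subgroupOf L) := by
      intro z
      induction z using QuotientGroup.induction_on with
      | H z =>
        refine ⟨2, (QuotientGroup.eq_one_iff _).2 ?_⟩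
        rw [mem_subgroupOf]
        simpa using hL4 z z.2
    have htop : (Qa : Subgroup L).map (QuotientGroup.mk' (C.subgroupOf L)) = ⊤ := by
      exact ((Qa.mapSurjective (QuotientGroup.mk'_surjective (C.subgroupOf L))).3 (Q := ⊤)
        (hpq.to_subgroup ⊤) le_top).symm
    have hm : QuotientGroup.mk' (C.subgroupOf L) m ∈
        (Qa : Subgroup L).map (QuotientGroup.mk' (C.subgroupOf L)) := htop ▸ mem_top _
    obtain ⟨u, hu, he⟩ := hm
    exact ⟨u, hu, u⁻¹ * m, mem_subgroupOf.1 (QuotientGroup.eq.1 he), by group⟩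
  obtain ⟨u, hu, v, hv, hyuv⟩ := hLC y
  have hvQ : ∀ q ∈ Qb, v * q * v⁻¹ ∈ Qa := by
    intro q hq
    have h1 : y * q * y⁻¹ ∈ Qa := by
      rw [← hy]
      exact ⟨q, hq, rfl⟩
    rw [hyuv] at h1
    have := mul_mem (mul_mem (inv_mem hu) h1) hu
    simpa [mul_assoc] using this
  obtain ⟨g, hg⟩ := F.exists_conj_le (Qa.2.map L.subtype)
  have hEn : (E.subgroupOf L).Normal := ⟨fun e he m => by
    rw [mem_subgroupOf] at he ⊢
    exact hME m m.2.1 _ he⟩
  have hEQ : ∀ e ∈ E, g * e * g⁻¹ ∈ (S : Subgroup G) := by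
    intro e he
    refine hg e ⟨⟨e, hEL he⟩, ?_, rfl⟩
    obtain ⟨z, hz⟩ := MulAction.exists_smul_eq L Q Qa
    rw [← hz]
    refine ⟨z⁻¹ * ⟨e, hEL he⟩ * z, hQ ?_, by simp [mul_assoc]⟩
    have := hEn.conj_mem ⟨e, hEL he⟩ (by simpa [mem_subgroupOf] using he) z⁻¹
    simpa [mem_subgroupOf] using this
  -- both halves of the conjugate of `E` lie in `A`
  have haS : g * a * g⁻¹ ∈ (S : Subgroup G) :=
    hg a ⟨⟨a, haL⟩, hQa (mem_zpowers _), rfl⟩
  have hbS : g * (v * b * (v : G)⁻¹) * g⁻¹ ∈ (S : Subgroup G) :=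
    hg _ ⟨v * ⟨b, hbL⟩ * v⁻¹, hvQ _ (hQb (mem_zpowers _)), rfl⟩
  have key : ∀ (B₀ : Subgroup G) (a₀ k : G), B₀ ≤ A → Nat.card B₀ = 16 → a₀ ∈ A → a₀ ∉ B₀ →
      (∀ y ∈ B₀, g * (k * y * k⁻¹) * g⁻¹ ∈ (S : Subgroup G)) →
      g * (k * a₀ * k⁻¹) * g⁻¹ ∈ (S : Subgroup G) →
      ∀ y ∈ B₀, g * (k * y * k⁻¹) * g⁻¹ ∈ A := by
    intro B₀ a₀ k hB₀ hc₀ ha₀ hna₀ hS₀ hSa y hy
    obtain ⟨D, hBD, haD, hD, hDsq, hDc, hsplit⟩ := card_sup_zpowers (H := B₀) (F.sq a₀ ha₀) hna₀
      (fun b hb => F.sq b (hB₀ hb)) (fun p hp q hq => F.comm p (hB₀ hp) q (hB₀ hq))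
      (fun b hb => F.comm a₀ ha₀ b (hB₀ hb))
    let φ := (MulAut.conj (g * k)).toMonoidHom
    have hφ : ∀ z, φ z = g * (k * z * k⁻¹) * g⁻¹ := fun z => by simp [φ, mul_assoc]
    have hle : D.map φ ≤ A := by
      refine F.le_of_conj_le ?_ ?_ ?_ ?_ (g := (g * k)⁻¹) ?_
      · rintro _ ⟨d, hd, rfl⟩
        rcases hsplit d hd with h | h
        · rw [hφ]; exact hS₀ d h
        · have : φ d = φ a₀ * φ (a₀ * d) := by
            rw [← map_mul, ← mul_assoc, F.sq a₀ ha₀, one_mul]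
          rw [this]
          exact mul_mem ((hφ a₀).symm ▸ hSa) ((hφ _).symm ▸ hS₀ _ h)
      · rintro _ ⟨p, hp, rfl⟩ _ ⟨q, hq, rfl⟩
        rw [← map_mul, ← map_mul, hDc p hp q hq]
      · rintro _ ⟨p, hp, rfl⟩
        rw [← map_mul, hDsq p hp, map_one]
      · rw [← Nat.card_congr (D.equivMapOfInjective φ (MulAut.conj (g * k)).injective).toEquiv,
          hD, hc₀]
      · rintro _ ⟨p, hp, rfl⟩
        rw [hφ]
        have : (g * k)⁻¹ * (g * (k * p * k⁻¹) * g⁻¹) * (g * k)⁻¹⁻¹ = p := by group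
        rw [this]
        rcases hsplit p hp with h | h
        · exact hB₀ h
        · have := mul_mem ha₀ (hB₀ h)
          rwa [← mul_assoc, F.sq a₀ ha₀, one_mul] at this
    rw [← hφ]
    exact hle (mem_map_of_mem φ (hBD hy))
  have k1 := key B a 1 hBA hB ha hanB (fun y hy => by simpa using hEQ y (hBE hy))
    (by simpa using haS)
  have hvC : ∀ e ∈ E, (v : G) * e * (v : G)⁻¹ = e := fun e he => by
    rw [← mem_centralizer_iff.1 hv e he]; group
  have k2 := key B a (v * h) hBA hB ha hanB (fun y hy => by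
      have hy' : h * y * h⁻¹ ∈ E := hB'E ⟨y, hy, rfl⟩
      have := hEQ _ hy'
      rw [← hvC _ hy'] at this
      simpa [mul_assoc] using this)
    (by simpa [hb, mul_assoc] using hbS)
  let E' : Subgroup G := E.map (MulAut.conj g).toMonoidHom
  have hall : ∀ e ∈ E, g * e * g⁻¹ ∈ A := by
    let T : Subgroup G := A.comap (MulAut.conj g).toMonoidHom
    have hBT : B ≤ T := fun y hy => by simpa [T] using k1 y hy
    have hB'T : B' ≤ T := by
      rintro _ ⟨y, hy, rfl⟩
      have h1 := k2 y hy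
      have hy' : h * y * h⁻¹ ∈ E := hB'E ⟨y, hy, rfl⟩
      have h3 : (v : G) * h * y * ((v : G) * h)⁻¹ = h * y * h⁻¹ := by
        rw [show (v : G) * h * y * ((v : G) * h)⁻¹ = v * (h * y * h⁻¹) * (v : G)⁻¹ by group,
          hvC _ hy']
      rw [h3] at h1
      simpa [T] using h1
    obtain ⟨y, hy, hyB⟩ := SetLike.not_le_iff_exists.1 hne
    have hidxB : (B.subgroupOf E).index = 2 := by
      have h1 := (B.subgroupOf E).card_mul_index
      rw [Nat.card_congr (subgroupOfEquivOfLe hBE).toEquiv, hB, hE32] at h1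
      omega
    intro e he
    have heT : e ∈ T := by
      by_cases heB : e ∈ B
      · exact hBT heB
      · have h1 : (⟨y, hB'E hy⟩ * ⟨e, he⟩ : E) ∈ B.subgroupOf E :=
          (Subgroup.mul_mem_iff_of_index_two hidxB).2 (iff_of_false hyB heB)
        have := mul_mem (inv_mem (hB'T hy)) (hBT h1)
        simpa using this
    simpa [T] using heT
  exact hn (F.le_of_conj_le hES hc hsq hE32 hall hxE)

/-- No element outside `A` is conjugate into `A`. -/
theorem strongly_closed {a g : G} (ha : a ∈ A) (hg : g * a * g⁻¹ ∈ (S : Subgroup G)) :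
    g * a * g⁻¹ ∈ A := by
  classical
  by_contra hn
  set x := g * a * g⁻¹ with hx
  have h2 : x * x = 1 := by
    rw [hx, show g * a * g⁻¹ * (g * a * g⁻¹) = g * (a * a) * g⁻¹ by group, F.sq a ha, mul_one,
      mul_inv_cancel]
  obtain ⟨B, hBA, hB, hmem, E, hBE, hxE, hES, hE32, hsq, hc, hEA⟩ :=
    F.exists_centralizer_thirty_two hg h2 hn
  -- inside the centraliser of `a`
  let K : Subgroup G := centralizer {a}
  have hAK : A ≤ K := fun b hb => mem_centralizer_singleton_iff.2 (F.comm b hb a ha)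
  let E1 : Subgroup G := E.map (MulAut.conj g⁻¹).toMonoidHom
  have hE1K : E1 ≤ K := by
    rintro _ ⟨e, he, rfl⟩
    refine mem_centralizer_singleton_iff.2 ?_
    show g⁻¹ * e * g⁻¹⁻¹ * a = a * (g⁻¹ * e * g⁻¹⁻¹)
    calc g⁻¹ * e * g⁻¹⁻¹ * a = g⁻¹ * (e * x) * g := by rw [hx]; group
      _ = g⁻¹ * (x * e) * g := by rw [hc e he x hxE]
      _ = _ := by rw [hx]; group
  haveI : Fact (Nat.Prime 2) := ⟨Nat.prime_two⟩
  obtain ⟨Q1, hQ1⟩ := ((exists_pow_two F.sq).comap_of_injective K.subtype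
    Subtype.val_injective).exists_le_sylow
  obtain ⟨Q2, hQ2⟩ := (((exists_pow_two hsq).map (MulAut.conj g⁻¹).toMonoidHom).comap_of_injective
    K.subtype Subtype.val_injective).exists_le_sylow (G := K)
  obtain ⟨k, hk⟩ := MulAction.exists_smul_eq K Q2 Q1
  obtain ⟨m, hm⟩ := F.exists_conj_le (Q1.2.map K.subtype)
  have hmA : ∀ b ∈ A, m * b * m⁻¹ ∈ (S : Subgroup G) := fun b hb =>
    hm b ⟨⟨b, hAK hb⟩, hQ1 hb, rfl⟩
  set g' := m * k * g⁻¹ with hg'
  have hE'S : ∀ e ∈ E, g' * e * g'⁻¹ ∈ (S : Subgroup G) := by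
    intro e he
    have hmem' : k * (⟨g⁻¹ * e * g⁻¹⁻¹, hE1K ⟨e, he, rfl⟩⟩ : K) * k⁻¹ ∈ Q1 := by
      rw [← hk]
      exact ⟨⟨_, hE1K ⟨e, he, rfl⟩⟩, hQ2 ⟨e, he, rfl⟩, rfl⟩
    have := hm _ ⟨_, hmem', rfl⟩
    simpa [hg', mul_assoc] using this
  have hxA : g' * x * g'⁻¹ ∈ A := by
    have e : g' * x * g'⁻¹ = m * ((k : G) * a * (k : G)⁻¹) * m⁻¹ := by
      rw [hg', hx]; group
    rw [e, mem_centralizer_singleton_iff.1 k.2, mul_assoc a, mul_inv_cancel, mul_one]
    exact (F.mem_norm_of_conj hmA a).1 ha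
  let φ := (MulAut.conj g').toMonoidHom
  let E' : Subgroup G := E.map φ
  have hE'c : ∀ p ∈ E', ∀ q ∈ E', p * q = q * p := by
    rintro _ ⟨p, hp, rfl⟩ _ ⟨q, hq, rfl⟩
    rw [← map_mul, ← map_mul, hc p hp q hq]
  have hE'2 : ∀ p ∈ E', p * p = 1 := by
    rintro _ ⟨p, hp, rfl⟩
    rw [← map_mul, hsq p hp, map_one]
  have hE'32 : Nat.card E' = 32 := by
    rw [← Nat.card_congr (E.equivMapOfInjective φ (MulAut.conj g').injective).toEquiv, hE32]
  have hE'le : E' ≤ (S : Subgroup G) := by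
    rintro _ ⟨e, he, rfl⟩
    exact hE'S e he
  have hn' := F.conj_mem_thirty_two hE'le hE'c hE'2 hE'32
  have hnE := F.conj_mem_thirty_two hES hc hsq hE32
  by_cases hsub : E' ≤ A
  · exact hn (F.le_of_conj_le hES hc hsq hE32 (g := g')
      (fun e he => hsub ⟨e, he, rfl⟩) hxE)
  let K' := normalizer (E : Set G)
  have h1 : A ≤ K' := fun b hb => mem_normalizer_iff.2 fun e =>
    ⟨fun he => hnE b hb e he, fun he => by
      have := hnE b⁻¹ (inv_mem hb) _ he
      simpa [mul_assoc] using this⟩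
  have h3 : ∀ b ∈ A, g'⁻¹ * b * g'⁻¹⁻¹ ∈ K' := by
    intro b hb
    refine mem_normalizer_iff.2 fun e => ?_
    have key : ∀ b ∈ A, ∀ e ∈ E, g'⁻¹ * b * g'⁻¹⁻¹ * e * (g'⁻¹ * b * g'⁻¹⁻¹)⁻¹ ∈ E := by
      intro b hb e he
      obtain ⟨d, hd, hde⟩ := hn' b hb _ ⟨e, he, rfl⟩
      have : g'⁻¹ * b * g'⁻¹⁻¹ * e * (g'⁻¹ * b * g'⁻¹⁻¹)⁻¹ = d := by
        have h : g'⁻¹ * (b * φ e * b⁻¹) * g' = d := by rw [← hde]; simp [φ, mul_assoc]
        rw [← h]; simp [φ, mul_assoc]
      rwa [this]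
    refine ⟨key b hb e, fun he => ?_⟩
    have := key b⁻¹ (inv_mem hb) _ he
    simpa [mul_assoc] using this
  obtain ⟨n, hn1, hn2⟩ := F.exists_normalizing h1 h3
  have hy : n * x * n⁻¹ ∈ A := by
    have := (mem_normalizer_iff.1 hn2 _).1 hxA
    simpa [mul_assoc] using this
  have hyB : n * x * n⁻¹ ∈ B := hEA _ ((mem_normalizer_iff.1 hn1 x).1 hxE) hy
  have := F.conj_mem_centralized hg h2 hn hBA hB hmem hBE hxE hES hE32 hsq hc hEA
    (inv_mem hn1) _ hyB
  exact hn (hBA (by simpa [mul_assoc] using this))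

end Frame

end Cfsg.Agent.M24Type
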