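import Cfsg.Agent.M24Type.Model

set_option autoImplicit false
set_option linter.unusedSectionVars false

/-!
A group of order 512 with an elementary abelian subgroup of order 64 on which the quotient acts as
on the natural plus dual module of the unitriangular group of degree three.
-/

namespace Cfsg.Agent.M24Type

variable {G : Type*} [Group G]

/-- A vector or the identity. -/
def pw (x : G) (b : Bool) : G := bif b then x else 1

/-- The product of the basis vectors selected by the bits of a number. -/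
def enc (v : ℕ → G) (n : ℕ) : G :=
  pw (v 0) (n.testBit 0) * pw (v 1) (n.testBit 1) * pw (v 2) (n.testBit 2) *
    pw (v 3) (n.testBit 3) * pw (v 4) (n.testBit 4) * pw (v 5) (n.testBit 5)

/-- The defining data. -/
structure Frame (S A : Subgroup G) where
  /-- The basis. -/
  v : ℕ → G
  /-- The first generator. -/
  s : G
  /-- The second generator. -/
  t : G
  hle : A ≤ S
  comm : ∀ a ∈ A, ∀ b ∈ A, a * b = b * a
  sq : ∀ a ∈ A, a * a = 1
  hA : Nat.card A = 64
  hS : Nat.card S = 512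
  hv : ∀ i < 6, v i ∈ A
  hs : s ∈ S
  ht : t ∈ S
  inj : ∀ n < 64, enc v n = 1 → n = 0
  hsig : ∀ i < 6, s * v i * s⁻¹ = enc v (sig (2 ^ i))
  htau : ∀ i < 6, t * v i * t⁻¹ = enc v (tau (2 ^ i))
  uniq : ∀ B : Subgroup G, B ≤ S → IsMulCommutative B → Nat.card B = 64 → B = A

theorem act_spec {i n : ℕ} (hi : i < 8) (hn : n < 64) : act i n < 64 ∧
    act i n = lin (act i 1) (act i 2) (act i 4) (act i 8) (act i 16) (act i 32) n := by
  have h := actOK_true
  simp only [actOK, List.all_eq_true, List.mem_range, Bool.and_eq_true, Nat.blt_eq] at h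
  obtain ⟨h1, h2⟩ := h i hi n hn
  exact ⟨h1, Nat.eq_of_beq_eq_true h2⟩

theorem mul_spec {i j : ℕ} (hi : i < 8) (hj : j < 8) :
    ∃ k < 8, ∀ n < 64, act i (act j n) = act k n := by
  have h := mulOK_true
  simp only [mulOK, List.all_eq_true, List.any_eq_true, List.mem_range] at h
  obtain ⟨k, hk, h'⟩ := h i hi j hj
  exact ⟨k, hk, fun n hn => Nat.eq_of_beq_eq_true (h' n hn)⟩

theorem act_inj {i j : ℕ} (hi : i < 8) (hj : j < 8) (h : ∀ n < 64, act i n = act j n) : i = j := by
  have hd := distOK_true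
  simp only [distOK, List.all_eq_true, List.any_eq_true, List.mem_range, Bool.not_eq_true'] at hd
  rcases lt_trichotomy i j with hl | hl | hl
  · obtain ⟨n, hn, e⟩ := hd j hj i hl
    rw [h n hn] at e
    simp at e
  · exact hl
  · obtain ⟨n, hn, e⟩ := hd i hi j hl
    rw [h n hn] at e
    simp at e

theorem xor_lt {n m : ℕ} (hn : n < 64) (hm : m < 64) : n ^^^ m < 64 :=
  Nat.xor_lt_two_pow (n := 6) hn hm

namespace Frame

variable {S A : Subgroup G} (F : Frame S A)

include F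

theorem pw_mem {i : ℕ} (hi : i < 6) (b : Bool) : pw (F.v i) b ∈ A := by
  cases b
  · exact one_mem A
  · exact F.hv i hi

theorem enc_mem (n : ℕ) : enc F.v n ∈ A :=
  mul_mem (mul_mem (mul_mem (mul_mem (mul_mem (F.pw_mem (by norm_num) _) (F.pw_mem (by norm_num) _))
    (F.pw_mem (by norm_num) _)) (F.pw_mem (by norm_num) _)) (F.pw_mem (by norm_num) _))
    (F.pw_mem (by norm_num) _)

theorem enc_zero : enc F.v 0 = 1 := by
  simp [enc, pw]

theorem four_comm {a b c d : G} (hb : b ∈ A) (hc : c ∈ A) :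
    a * b * (c * d) = a * c * (b * d) := by
  calc a * b * (c * d) = a * (b * c) * d := by group
    _ = a * (c * b) * d := by rw [F.comm b hb c hc]
    _ = a * c * (b * d) := by group

theorem pw_xor {i : ℕ} (hi : i < 6) (a b : Bool) :
    pw (F.v i) (a ^^ b) = pw (F.v i) a * pw (F.v i) b := by
  cases a <;> cases b <;> simp [pw, F.sq _ (F.hv i hi)]

theorem enc_xor (n m : ℕ) : enc F.v (n ^^^ m) = enc F.v n * enc F.v m := by
  have p := fun i (hi : i < 6) k => F.pw_mem hi (k : Bool)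
  simp only [enc, Nat.testBit_xor]
  rw [F.pw_xor (by norm_num), F.pw_xor (by norm_num), F.pw_xor (by norm_num),
    F.pw_xor (by norm_num), F.pw_xor (by norm_num), F.pw_xor (by norm_num)]
  have q0 := p 0 (by norm_num)
  have q1 := p 1 (by norm_num)
  have q2 := p 2 (by norm_num)
  have q3 := p 3 (by norm_num)
  have q4 := p 4 (by norm_num)
  have q5 := p 5 (by norm_num)
  rw [F.four_comm (q0 _) (q1 _),
    F.four_comm (mul_mem (q0 _) (q1 _)) (q2 _),
    F.four_comm (mul_mem (mul_mem (q0 _) (q1 _)) (q2 _)) (q3 _),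
    F.four_comm (mul_mem (mul_mem (mul_mem (q0 _) (q1 _)) (q2 _)) (q3 _)) (q4 _),
    F.four_comm (mul_mem (mul_mem (mul_mem (mul_mem (q0 _) (q1 _)) (q2 _)) (q3 _)) (q4 _)) (q5 _)]

theorem enc_inj {n m : ℕ} (hn : n < 64) (hm : m < 64) (h : enc F.v n = enc F.v m) : n = m := by
  have h' : enc F.v (n ^^^ m) = 1 := by rw [F.enc_xor, h, F.sq _ (F.enc_mem m)]
  exact Nat.xor_eq_zero_iff.1 (F.inj _ (xor_lt hn hm) h')

theorem exists_enc [Finite G] {a : G} (ha : a ∈ A) : ∃ n < 64, enc F.v n = a := by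
  classical
  haveI : Fintype G := Fintype.ofFinite G
  let f : Fin 64 → A := fun n => ⟨enc F.v n, F.enc_mem n⟩
  have hi : Function.Injective f := fun n m h =>
    Fin.ext (F.enc_inj n.2 m.2 (congrArg Subtype.val h))
  have hb : Function.Bijective f :=
    (Fintype.bijective_iff_injective_and_card f).2 ⟨hi, by
      rw [Fintype.card_fin, ← Nat.card_eq_fintype_card, F.hA]⟩
  obtain ⟨n, hn⟩ := hb.2 ⟨a, ha⟩
  exact ⟨n, n.2, congrArg Subtype.val hn⟩

/-- Conjugation by `x` induces the `i`-th element. -/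
def Acts (x : G) (i : ℕ) : Prop := i < 8 ∧ ∀ n < 64, x * enc F.v n * x⁻¹ = enc F.v (act i n)

theorem acts_of_basis (x : G) {i : ℕ} (hi : i < 8)
    (h : ∀ j < 6, x * F.v j * x⁻¹ = enc F.v (act i (2 ^ j))) : F.Acts x i := by
  refine ⟨hi, fun n hn => ?_⟩
  have hp : ∀ j < 6, x * pw (F.v j) (n.testBit j) * x⁻¹ =
      enc F.v (bit n j * act i (2 ^ j)) := by
    intro j hj
    cases hb : n.testBit j
    · have : bit n j = 0 := by
        simp [bit, Nat.shiftRight_eq_div_pow, Nat.and_one_is_mod] at *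
        simpa [Nat.testBit_eq_decide_div_mod_eq] using hb
      rw [this, zero_mul, F.enc_zero]
      simp [pw]
    · have : bit n j = 1 := by
        simp [bit, Nat.shiftRight_eq_div_pow, Nat.and_one_is_mod] at *
        simpa [Nat.testBit_eq_decide_div_mod_eq] using hb
      rw [this, one_mul]
      exact h j hj
  rw [(act_spec hi hn).2, lin, F.enc_xor, F.enc_xor, F.enc_xor, F.enc_xor, F.enc_xor]
  have h1 := hp 0 (by norm_num)
  have h2 := hp 1 (by norm_num)
  have h3 := hp 2 (by norm_num)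
  have h4 := hp 3 (by norm_num)
  have h5 := hp 4 (by norm_num)
  have h6 := hp 5 (by norm_num)
  norm_num only at h1 h2 h3 h4 h5 h6
  rw [← h1, ← h2, ← h3, ← h4, ← h5, ← h6, enc]
  group

theorem acts_mul {x y : G} {i j : ℕ} (hx : F.Acts x i) (hy : F.Acts y j) :
    ∃ k, F.Acts (x * y) k ∧ ∀ n < 64, act i (act j n) = act k n := by
  obtain ⟨k, hk, h⟩ := mul_spec hx.1 hy.1
  refine ⟨k, ⟨hk, fun n hn => ?_⟩, h⟩
  rw [← h n hn, ← hx.2 _ (act_spec hy.1 hn).1, ← hy.2 n hn]
  group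

theorem acts_unique {x : G} {i j : ℕ} (hi : F.Acts x i) (hj : F.Acts x j) : i = j :=
  act_inj hi.1 hj.1 fun n hn => F.enc_inj (act_spec hi.1 hn).1 (act_spec hj.1 hn).1
    ((hi.2 n hn).symm.trans (hj.2 n hn))

theorem acts_of_mem [Finite G] {a : G} (ha : a ∈ A) : F.Acts a 0 := by
  refine ⟨by norm_num, fun n hn => ?_⟩
  rw [F.comm a ha _ (F.enc_mem n)]
  simp [act, mul_assoc]

theorem acts_s : F.Acts F.s 1 := F.acts_of_basis _ (by norm_num) F.hsig

theorem acts_t : F.Acts F.t 2 := F.acts_of_basis _ (by norm_num) F.htau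

theorem exists_rep [Finite G] : ∀ i < 8, ∃ w ∈ S, F.Acts w i := by
  have key : ∀ {x y : G} {i j : ℕ} (k : ℕ), k < 8 → F.Acts x i → F.Acts y j →
      (∀ n < 64, act i (act j n) = act k n) → F.Acts (x * y) k := by
    intro x y i j k hk hx hy h
    obtain ⟨k', hk', h'⟩ := F.acts_mul hx hy
    rw [act_inj hk hk'.1 fun n hn => (h n hn).symm.trans (h' n hn)]
    exact hk'
  have hs := F.acts_s
  have ht := F.acts_t
  have h3 := key 3 (by norm_num) hs ht (fun n _ => rfl)
  have h4 := key 4 (by norm_num) ht hs (fun n _ => rfl)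
  have h5 := key 5 (by norm_num) hs h4 (fun n _ => rfl)
  have h6 := key 6 (by norm_num) ht h3 (fun n _ => rfl)
  have h7 := key 7 (by norm_num) hs h6 (fun n _ => rfl)
  intro i hi
  interval_cases i
  · exact ⟨1, one_mem _, F.acts_of_mem (one_mem _)⟩
  · exact ⟨_, F.hs, hs⟩
  · exact ⟨_, F.ht, ht⟩
  · exact ⟨_, mul_mem F.hs F.ht, h3⟩
  · exact ⟨_, mul_mem F.ht F.hs, h4⟩
  · exact ⟨_, mul_mem F.hs (mul_mem F.ht F.hs), h5⟩
  · exact ⟨_, mul_mem F.ht (mul_mem F.hs F.ht), h6⟩
  · exact ⟨_, mul_mem F.hs (mul_mem F.ht (mul_mem F.hs F.ht)), h7⟩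

theorem decompose [Finite G] {x : G} (hx : x ∈ S) :
    ∃ i, F.Acts x i ∧ (i = 0 → x ∈ A) := by
  classical
  haveI : Fintype G := Fintype.ofFinite G
  choose w hw hact using F.exists_rep
  let f : Fin 8 × A → S := fun p =>
    ⟨w p.1 p.1.2 * p.2, mul_mem (hw _ _) (F.hle p.2.2)⟩
  have hA : ∀ (i : Fin 8) (a : A), F.Acts (w i i.2 * a) i := by
    intro i a
    obtain ⟨k, hk, h⟩ := F.acts_mul (hact i i.2) (F.acts_of_mem a.2)
    have e : (i : ℕ) = k := act_inj i.2 hk.1 fun n hn => h n hn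
    exact ⟨i.2, fun n hn => by rw [hk.2 n hn, e]⟩
  have hi : Function.Injective f := by
    rintro ⟨i, a⟩ ⟨j, b⟩ h
    have he : w i i.2 * (a : G) = w j j.2 * b := congrArg Subtype.val h
    have hij : (i : ℕ) = j := F.acts_unique (hA i a) (he ▸ hA j b)
    have : i = j := Fin.ext hij
    subst this
    exact Prod.ext rfl (Subtype.ext (mul_left_cancel he))
  have hb : Function.Bijective f :=
    (Fintype.bijective_iff_injective_and_card f).2 ⟨hi, by
      rw [Fintype.card_prod, Fintype.card_fin, ← Nat.card_eq_fintype_card,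
        ← Nat.card_eq_fintype_card, F.hA, F.hS]⟩
  obtain ⟨⟨i, a⟩, h⟩ := hb.2 ⟨x, hx⟩
  have he : w i i.2 * (a : G) = x := congrArg Subtype.val h
  refine ⟨i, he ▸ hA i a, fun h0 => ?_⟩
  obtain ⟨⟨j, b⟩, h'⟩ := hb.2 ⟨1, one_mem S⟩
  have he' : w j j.2 * (b : G) = 1 := congrArg Subtype.val h'
  have hj : (j : ℕ) = 0 := F.acts_unique (he' ▸ hA j b) (F.acts_of_mem (one_mem _))
  have : i = j := Fin.ext (h0.trans hj.symm)
  subst this
  rw [← he, show w i i.2 = (b : G)⁻¹ from eq_inv_of_mul_eq_one_left he']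
  exact mul_mem (inv_mem b.2) a.2

theorem normal [Finite G] {x a : G} (hx : x ∈ S) (ha : a ∈ A) : x * a * x⁻¹ ∈ A := by
  obtain ⟨i, hi, -⟩ := F.decompose hx
  obtain ⟨n, hn, rfl⟩ := F.exists_enc ha
  rw [hi.2 n hn]
  exact F.enc_mem _

theorem mem_of_centralizes [Finite G] {x : G} (hx : x ∈ S)
    (h : ∀ a ∈ A, x * a = a * x) : x ∈ A := by
  obtain ⟨i, hi, h0⟩ := F.decompose hx
  refine h0 (F.acts_unique hi ⟨by norm_num, fun n hn => ?_⟩)
  rw [h _ (F.enc_mem n)]
  simp [act, mul_assoc]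

end Frame

end Cfsg.Agent.M24Type
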