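import Cfsg.Agent.M24Type.Frame

set_option autoImplicit false
set_option maxHeartbeats 1000000

/-!
Linear maps of vectors below 64: bits, traces on the two summands and xor-sums.
-/

namespace Cfsg.Agent.M24Type

/-- Linear on numbers below 64. -/
def Lin (f : ℕ → ℕ) : Prop :=
  (∀ n < 64, f n < 64) ∧ ∀ n < 64, ∀ m < 64, f (n ^^^ m) = f n ^^^ f m

theorem Lin.zero {f : ℕ → ℕ} (h : Lin f) : f 0 = 0 := by
  have e := h.2 0 (by norm_num) 0 (by norm_num)
  simp only [Nat.xor_self] at e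
  exact e

theorem Lin.comp {f g : ℕ → ℕ} (hf : Lin f) (hg : Lin g) : Lin (f ∘ g) :=
  ⟨fun n hn => hf.1 _ (hg.1 n hn), fun n hn m hm => by
    simp only [Function.comp_apply]
    rw [hg.2 n hn m hm, hf.2 _ (hg.1 n hn) _ (hg.1 m hm)]⟩

theorem Lin.it8 {f : ℕ → ℕ} (hf : Lin f) : Lin (it8 f) :=
  hf.comp (hf.comp (hf.comp (hf.comp (hf.comp (hf.comp (hf.comp hf))))))

theorem lin_basis : ∀ n < 64, lin 1 2 4 8 16 32 n = n := by decide +kernel

theorem bit_le (n i : ℕ) : bit n i ≤ 1 := Nat.and_le_right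

theorem mul_bit_lt {a : ℕ} (ha : a < 64) (n i : ℕ) : bit n i * a < 64 := by
  rcases Nat.le_one_iff_eq_zero_or_eq_one.1 (bit_le n i) with h | h <;> rw [h] <;> omega

theorem Lin.apply_mul_bit {f : ℕ → ℕ} (hf : Lin f) (n i a : ℕ) :
    f (bit n i * a) = bit n i * f a := by
  rcases Nat.le_one_iff_eq_zero_or_eq_one.1 (bit_le n i) with h | h <;> rw [h]
  · rw [zero_mul, zero_mul, hf.zero]
  · rw [one_mul, one_mul]

theorem Lin.eq_lin {f : ℕ → ℕ} (hf : Lin f) {n : ℕ} (hn : n < 64) :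
    f n = lin (f 1) (f 2) (f 4) (f 8) (f 16) (f 32) n := by
  conv_lhs => rw [← lin_basis n hn]
  have h1 := fun i => mul_bit_lt (show 1 < 64 by norm_num) n i
  have h2 := fun i => mul_bit_lt (show 2 < 64 by norm_num) n i
  have h4 := fun i => mul_bit_lt (show 4 < 64 by norm_num) n i
  have h8 := fun i => mul_bit_lt (show 8 < 64 by norm_num) n i
  have h16 := fun i => mul_bit_lt (show 16 < 64 by norm_num) n i
  have h32 := fun i => mul_bit_lt (show 32 < 64 by norm_num) n i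
  rw [lin, lin, hf.2 _ (xor_lt (xor_lt (xor_lt (xor_lt (h1 _) (h2 _)) (h4 _)) (h8 _)) (h16 _)) _ (h32 _),
    hf.2 _ (xor_lt (xor_lt (xor_lt (h1 _) (h2 _)) (h4 _)) (h8 _)) _ (h16 _),
    hf.2 _ (xor_lt (xor_lt (h1 _) (h2 _)) (h4 _)) _ (h8 _),
    hf.2 _ (xor_lt (h1 _) (h2 _)) _ (h4 _), hf.2 _ (h1 _) _ (h2 _)]
  simp only [hf.apply_mul_bit]

theorem Lin.ext {f g : ℕ → ℕ} (hf : Lin f) (hg : Lin g) (h : ∀ j < 6, f (2 ^ j) = g (2 ^ j)) :
    ∀ n < 64, f n = g n := by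
  intro n hn
  rw [hf.eq_lin hn, hg.eq_lin hn]
  have h0 := h 0 (by norm_num); have h1 := h 1 (by norm_num); have h2 := h 2 (by norm_num)
  have h3 := h 3 (by norm_num); have h4 := h 4 (by norm_num); have h5 := h 5 (by norm_num)
  norm_num only at h0 h1 h2 h3 h4 h5
  rw [h0, h1, h2, h3, h4, h5]

theorem bit_xor {a b : ℕ} (i : ℕ) : bit (a ^^^ b) i = (bit a i + bit b i) % 2 := by
  simp only [bit, Nat.and_one_is_mod, Nat.shiftRight_xor_distrib]
  rcases Nat.mod_two_eq_zero_or_one (a >>> i) with h | h <;>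
    rcases Nat.mod_two_eq_zero_or_one (b >>> i) with h' | h' <;>
    simp [h, h'] <;> omega

theorem and7_spec : ∀ n < 64, n &&& 7 = bit n 0 + 2 * bit n 1 + 4 * bit n 2 := by decide +kernel

theorem and7_act : ∀ i < 8, ∀ n < 64, act i (n &&& 7) = act i n &&& 7 := by decide +kernel

theorem lin_sig : Lin sig := by
  refine ⟨fun n hn => (act_spec (i := 1) (by norm_num) hn).1, ?_⟩
  decide +kernel

theorem lin_tau : Lin tau := by
  refine ⟨fun n hn => (act_spec (i := 2) (by norm_num) hn).1, ?_⟩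
  decide +kernel

theorem lin_act : ∀ {i : ℕ}, i < 8 → Lin (act i)
  | 0, _ => ⟨fun _ h => h, fun _ _ _ _ => rfl⟩
  | 1, _ => lin_sig
  | 2, _ => lin_tau
  | 3, _ => lin_sig.comp lin_tau
  | 4, _ => lin_tau.comp lin_sig
  | 5, _ => lin_sig.comp (lin_tau.comp lin_sig)
  | 6, _ => lin_tau.comp (lin_sig.comp lin_tau)
  | 7, _ => lin_sig.comp (lin_tau.comp (lin_sig.comp lin_tau))
  | _ + 8, h => absurd h (by omega)

theorem lin_and7 : Lin (fun n => n &&& 7) := by
  refine ⟨fun n _ => lt_of_le_of_lt Nat.and_le_right (by norm_num), ?_⟩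
  decide +kernel

theorem sig_bits : ∀ y < 64, bit (sig y) 0 = (bit y 0 + bit y 1) % 2 ∧ bit (sig y) 1 = bit y 1 ∧
    bit (sig y) 2 = bit y 2 ∧ bit (sig y) 3 = bit y 3 ∧ bit (sig y) 4 = (bit y 4 + bit y 3) % 2 ∧
    bit (sig y) 5 = bit y 5 := by decide +kernel

theorem tau_bits : ∀ y < 64, bit (tau y) 0 = bit y 0 ∧ bit (tau y) 1 = (bit y 1 + bit y 2) % 2 ∧
    bit (tau y) 2 = bit y 2 ∧ bit (tau y) 3 = bit y 3 ∧ bit (tau y) 4 = bit y 4 ∧
    bit (tau y) 5 = (bit y 5 + bit y 4) % 2 := by decide +kernel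

theorem tr_conj_sig {f : ℕ → ℕ} (hf : Lin f) :
    trV (sig ∘ f ∘ sig) = trV f ∧ trW (sig ∘ f ∘ sig) = trW f := by
  have h12 : f 3 = f 1 ^^^ f 2 := hf.2 1 (by norm_num) 2 (by norm_num)
  have h34 : f 24 = f 8 ^^^ f 16 := hf.2 8 (by norm_num) 16 (by norm_num)
  have b := fun n (hn : n < 64) => sig_bits (f n) (hf.1 n hn)
  constructor
  · simp only [trV, Function.comp_apply, show sig 1 = 1 from rfl, show sig 2 = 3 from rfl,
      show sig 4 = 4 from rfl]
    rw [(b 1 (by norm_num)).1, (b 3 (by norm_num)).2.1, (b 4 (by norm_num)).2.2.1, h12, bit_xor]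
    omega
  · simp only [trW, Function.comp_apply, show sig 8 = 24 from rfl, show sig 16 = 16 from rfl,
      show sig 32 = 32 from rfl]
    rw [(b 24 (by norm_num)).2.2.2.1, (b 16 (by norm_num)).2.2.2.2.1,
      (b 32 (by norm_num)).2.2.2.2.2, h34, bit_xor]
    omega

theorem tr_conj_tau {f : ℕ → ℕ} (hf : Lin f) :
    trV (tau ∘ f ∘ tau) = trV f ∧ trW (tau ∘ f ∘ tau) = trW f := by
  have h24 : f 6 = f 2 ^^^ f 4 := hf.2 2 (by norm_num) 4 (by norm_num)
  have h45 : f 48 = f 16 ^^^ f 32 := hf.2 16 (by norm_num) 32 (by norm_num)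
  have b := fun n (hn : n < 64) => tau_bits (f n) (hf.1 n hn)
  constructor
  · simp only [trV, Function.comp_apply, show tau 1 = 1 from rfl, show tau 2 = 2 from rfl,
      show tau 4 = 6 from rfl]
    rw [(b 1 (by norm_num)).1, (b 2 (by norm_num)).2.1, (b 6 (by norm_num)).2.2.1, h24, bit_xor]
    omega
  · simp only [trW, Function.comp_apply, show tau 8 = 8 from rfl, show tau 16 = 48 from rfl,
      show tau 32 = 32 from rfl]
    rw [(b 8 (by norm_num)).2.2.2.1, (b 48 (by norm_num)).2.2.2.2.1,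
      (b 32 (by norm_num)).2.2.2.2.2, h45, bit_xor]
    omega

/-- The index of the inverse. -/
def invI : ℕ → ℕ
  | 3 => 4
  | 4 => 3
  | i => i

theorem inv_spec : ∀ i < 8, invI i < 8 ∧
    ∀ n < 64, act i (act (invI i) n) = n ∧ act (invI i) (act i n) = n := by decide +kernel

theorem tr_conj_act {f : ℕ → ℕ} (hf : Lin f) : ∀ i < 8,
    trV (act i ∘ f ∘ act (invI i)) = trV f ∧ trW (act i ∘ f ∘ act (invI i)) = trW f := by
  intro i hi
  have hs := @tr_conj_sig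
  have ht := @tr_conj_tau
  have ls : ∀ {g}, Lin g → Lin (sig ∘ g ∘ sig) := fun h => lin_sig.comp (h.comp lin_sig)
  have lt : ∀ {g}, Lin g → Lin (tau ∘ g ∘ tau) := fun h => lin_tau.comp (h.comp lin_tau)
  interval_cases i
  · exact ⟨rfl, rfl⟩
  · exact hs hf
  · exact ht hf
  · exact ⟨(hs (lt hf)).1.trans (ht hf).1, (hs (lt hf)).2.trans (ht hf).2⟩
  · exact ⟨(ht (ls hf)).1.trans (hs hf).1, (ht (ls hf)).2.trans (hs hf).2⟩
  · exact ⟨((hs (lt (ls hf))).1.trans (ht (ls hf)).1).trans (hs hf).1,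
      ((hs (lt (ls hf))).2.trans (ht (ls hf)).2).trans (hs hf).2⟩
  · exact ⟨((ht (ls (lt hf))).1.trans (hs (lt hf)).1).trans (ht hf).1,
      ((ht (ls (lt hf))).2.trans (hs (lt hf)).2).trans (ht hf).2⟩
  · have e : act 7 ∘ f ∘ act (invI 7) = fun n => act 7 (f (act 7 n)) := rfl
    have h7 : ∀ n < 64, act 7 n = tau (sig (tau (sig n))) := by decide +kernel
    have h := (hs (lt (ls (lt hf))))
    have h' := (ht (ls (lt hf)))
    have hh : ∀ n < 64, act 7 (f (act 7 n)) =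
        (sig ∘ (tau ∘ (sig ∘ (tau ∘ f ∘ tau) ∘ sig) ∘ tau) ∘ sig) n := by
      intro n hn
      simp only [Function.comp_apply]
      rw [h7 n hn]
      rfl
    rw [e]
    constructor
    · rw [← ((h.1.trans h'.1).trans (hs (lt hf)).1).trans (ht hf).1]
      simp only [trV]
      rw [hh 1 (by norm_num), hh 2 (by norm_num), hh 4 (by norm_num)]
    · rw [← ((h.2.trans h'.2).trans (hs (lt hf)).2).trans (ht hf).2]
      simp only [trW]
      rw [hh 8 (by norm_num), hh 16 (by norm_num), hh 32 (by norm_num)]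

/-- The xor-sum of a list. -/
def xsum (L : List ℕ) : ℕ := L.foldr (· ^^^ ·) 0

theorem xsum_lt : ∀ {L : List ℕ}, (∀ x ∈ L, x < 64) → xsum L < 64
  | [], _ => by simp [xsum]
  | a :: L, h => xor_lt (h a List.mem_cons_self) (xsum_lt fun x hx => h x (List.mem_cons_of_mem _ hx))

theorem xsum_perm {L L' : List ℕ} (h : L.Perm L') : xsum L = xsum L' :=
  h.foldr_eq' (fun a _ b _ c => by rw [← Nat.xor_assoc, Nat.xor_comm b a, Nat.xor_assoc]) 0

theorem xsum_map_xor {α : Type*} (f g : α → ℕ) : ∀ L : List α,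
    xsum (L.map fun a => f a ^^^ g a) = xsum (L.map f) ^^^ xsum (L.map g)
  | [] => by simp [xsum]
  | a :: L => by
    show (f a ^^^ g a) ^^^ xsum (L.map fun a => f a ^^^ g a) =
      (f a ^^^ xsum (L.map f)) ^^^ (g a ^^^ xsum (L.map g))
    rw [xsum_map_xor f g L, Nat.xor_assoc, Nat.xor_assoc, ← Nat.xor_assoc (g a),
      Nat.xor_comm (g a), Nat.xor_assoc]

theorem Lin.apply_xsum {f : ℕ → ℕ} (hf : Lin f) {α : Type*} (g : α → ℕ) : ∀ L : List α,
    (∀ a ∈ L, g a < 64) → f (xsum (L.map g)) = xsum (L.map fun a => f (g a))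
  | [], _ => hf.zero
  | a :: L, h => by
    show f (g a ^^^ xsum (L.map g)) = f (g a) ^^^ xsum (L.map fun a => f (g a))
    rw [← Lin.apply_xsum hf g L fun x hx => h x (List.mem_cons_of_mem _ hx),
      hf.2 _ (h a List.mem_cons_self) _ (xsum_lt fun x hx => by
        obtain ⟨y, hy, rfl⟩ := List.mem_map.1 hx
        exact h y (List.mem_cons_of_mem _ hy))]

theorem bit_xsum {α : Type*} (g : α → ℕ) (i : ℕ) : ∀ L : List α,
    bit (xsum (L.map g)) i = (L.map fun a => bit (g a) i).sum % 2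
  | [] => by simp [xsum, bit]
  | a :: L => by
    show bit (g a ^^^ xsum (L.map g)) i = (bit (g a) i + (L.map fun a => bit (g a) i).sum) % 2
    rw [bit_xor, bit_xsum g i L, Nat.add_mod_mod]

/-- An endomorphism commuting with the generators is determined by two values. -/
theorem eq_emap {f : ℕ → ℕ} (hf : Lin f) (hs : ∀ n < 64, f (sig n) = sig (f n))
    (ht : ∀ n < 64, f (tau n) = tau (f n)) :
    sig (f 4) = f 4 ∧ tau (f 8) = f 8 ∧ (∀ n < 64, f n = emap (f 4) (f 8) n) ∧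
      isEnd (f 4) (f 8) = true := by
  have e2 : f 2 = f 4 ^^^ tau (f 4) := by
    rw [← ht 4 (by norm_num), ← hf.2 4 (by norm_num) _ (by decide)]
    rfl
  have e1 : f 1 = (f 4 ^^^ tau (f 4)) ^^^ sig (f 4 ^^^ tau (f 4)) := by
    rw [← e2, ← hs 2 (by norm_num), ← hf.2 2 (by norm_num) _ (by decide)]
    rfl
  have e16 : f 16 = f 8 ^^^ sig (f 8) := by
    rw [← hs 8 (by norm_num), ← hf.2 8 (by norm_num) _ (by decide)]
    rfl
  have e32 : f 32 = (f 8 ^^^ sig (f 8)) ^^^ tau (f 8 ^^^ sig (f 8)) := by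
    rw [← e16, ← ht 16 (by norm_num), ← hf.2 16 (by norm_num) _ (by decide)]
    rfl
  have h : ∀ n < 64, f n = emap (f 4) (f 8) n := fun n hn => by
    rw [hf.eq_lin hn, emap, e1, e2, e16, e32]
  refine ⟨(hs 4 (by norm_num)).symm, (ht 8 (by norm_num)).symm, h, ?_⟩
  simp only [isEnd, List.all_eq_true, List.mem_range, Bool.and_eq_true]
  intro j hj
  have hj' : 2 ^ j < 64 := (Nat.pow_lt_pow_right one_lt_two hj).trans_eq (by norm_num)
  rw [← h _ hj', ← h _ (lin_sig.1 _ hj'), ← h _ (lin_tau.1 _ hj')]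
  exact ⟨by simp [Nat.beq_eq, hs _ hj'], by simp [Nat.beq_eq, ht _ hj']⟩

theorem it8_congr {f g : ℕ → ℕ} (hg : ∀ n < 64, g n < 64) (h : ∀ n < 64, f n = g n) {n : ℕ}
    (hn : n < 64) : it8 f n = it8 g n := by
  have step : ∀ x, x < 64 → f x < 64 := fun x hx => (h x hx).symm ▸ hg x hx
  unfold it8
  rw [h n hn, h _ (hg _ hn), h _ (hg _ (hg _ hn)), h _ (hg _ (hg _ (hg _ hn))),
    h _ (hg _ (hg _ (hg _ (hg _ hn)))), h _ (hg _ (hg _ (hg _ (hg _ (hg _ hn))))),
    h _ (hg _ (hg _ (hg _ (hg _ (hg _ (hg _ hn)))))),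
    h _ (hg _ (hg _ (hg _ (hg _ (hg _ (hg _ (hg _ hn)))))))]

/-- The checked facts about endomorphisms, transported. -/
theorem end_spec {f : ℕ → ℕ} (hf : Lin f) (hs : ∀ n < 64, f (sig n) = sig (f n))
    (ht : ∀ n < 64, f (tau n) = tau (f n)) :
    ((∀ n < 64, f n = 0 → n = 0) → ∀ n < 64, it8 f n = n) ∧
      (trV f = 1 → trW f = 0 → (∀ n < 64, it8 f (it8 f n) = it8 f n) ∧
        (∀ x < 8, x ≠ 0 → it8 f x ≠ 0 ∧ it8 f (x * 8) ≠ x * 8) ∧
        ∀ i < 8, i ≠ 0 → (∃ n < 64, it8 f n = 0 ∧ act i n ≠ n) ∧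
          ∃ n < 64, it8 f n = n ∧ act i n ≠ n) := by
  obtain ⟨hc, hd, hm, he⟩ := eq_emap hf hs ht
  have hb : ∀ n < 64, emap (f 4) (f 8) n < 64 := fun n hn => hm n hn ▸ hf.1 n hn
  have h8 : ∀ n < 64, it8 f n = it8 (emap (f 4) (f 8)) n := fun n hn => it8_congr hb hm hn
  have hok := endOK_true
  simp only [endOK, List.all_eq_true, List.mem_filter, List.mem_range, Bool.or_eq_true,
    Bool.and_eq_true, Bool.not_eq_true', List.any_eq_true] at hok
  obtain ⟨h1, h2⟩ := (hok (f 4) ⟨hf.1 4 (by norm_num), by simp [Nat.beq_eq, hc]⟩ (f 8)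
    ⟨hf.1 8 (by norm_num), by simp [Nat.beq_eq, hd]⟩).resolve_left (by simp [he])
  refine ⟨fun hinj => ?_, fun hv hw => ?_⟩
  · rcases h1 with ⟨n, hn, hn0, hz⟩ | h1
    · rw [← hm n hn] at hz
      have := hinj n hn (Nat.eq_of_beq_eq_true hz)
      subst this
      simp at hn0
    · refine hf.it8.ext ⟨fun _ h => h, fun _ _ _ _ => rfl⟩ fun j hj => ?_
      rw [h8 _ ((Nat.pow_lt_pow_right one_lt_two hj).trans_eq (by norm_num))]
      exact Nat.eq_of_beq_eq_true (h1 j hj)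
  · have hv' : trV (emap (f 4) (f 8)) = 1 := by
      rw [← hv]
      simp only [trV]
      rw [← hm 1 (by norm_num), ← hm 2 (by norm_num), ← hm 4 (by norm_num)]
    have hw' : trW (emap (f 4) (f 8)) = 0 := by
      rw [← hw]
      simp only [trW]
      rw [← hm 8 (by norm_num), ← hm 16 (by norm_num), ← hm 32 (by norm_num)]
    obtain ⟨⟨ha, hbb⟩, hcc⟩ := h2.resolve_left (by simp [hv', hw'])
    refine ⟨(hf.it8.comp hf.it8).ext hf.it8 fun j hj => ?_, fun x hx hx0 => ?_, fun i hi hi0 => ?_⟩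
    · have hj' : 2 ^ j < 64 := (Nat.pow_lt_pow_right one_lt_two hj).trans_eq (by norm_num)
      have h9 := Nat.eq_of_beq_eq_true (ha j hj)
      rw [← h8 _ hj', ← h8 _ (hf.it8.1 _ hj')] at h9
      exact h9
    · obtain ⟨p, q⟩ := (hbb x hx).resolve_left (by simp [Nat.beq_eq, hx0])
      rw [h8 x (by omega), h8 (x * 8) (by omega)]
      exact ⟨fun e => by simp [e] at p, fun e => by simp [e] at q⟩
    · obtain ⟨⟨n, hn, hn1, hn2⟩, m, hm', hm1, hm2⟩ := (hcc i hi).resolve_left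
        (by simp [Nat.beq_eq, hi0])
      exact ⟨⟨n, hn, (h8 n hn).trans (Nat.eq_of_beq_eq_true hn1), fun e => by simp [e] at hn2⟩,
        m, hm', (h8 m hm').trans (Nat.eq_of_beq_eq_true hm1), fun e => by simp [e] at hm2⟩

end Cfsg.Agent.M24Type
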