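import Mathlib

set_option autoImplicit false
set_option maxHeartbeats 1000000

/-!
The module of order 64 of the unitriangular group of degree three: natural plus dual module, with
vectors written as numbers below 64 and checked facts about it.
-/

namespace Cfsg.Agent.M24Type

/-- The first generator. -/
def sig (n : ℕ) : ℕ := n ^^^ ((n >>> 1) &&& 1) ^^^ (((n >>> 3) &&& 1) <<< 4)

/-- The second generator. -/
def tau (n : ℕ) : ℕ := n ^^^ (((n >>> 2) &&& 1) <<< 1) ^^^ (((n >>> 4) &&& 1) <<< 5)

/-- The eight elements of the group. -/
def act : ℕ → ℕ → ℕ
  | 0, n => n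
  | 1, n => sig n
  | 2, n => tau n
  | 3, n => sig (tau n)
  | 4, n => tau (sig n)
  | 5, n => sig (tau (sig n))
  | 6, n => tau (sig (tau n))
  | _, n => sig (tau (sig (tau n)))

/-- The coefficient of a basis vector. -/
def bit (n i : ℕ) : ℕ := (n >>> i) &&& 1

/-- The linear map with the given images of the six basis vectors. -/
def lin (a b c d e f n : ℕ) : ℕ :=
  (bit n 0 * a) ^^^ (bit n 1 * b) ^^^ (bit n 2 * c) ^^^ (bit n 3 * d) ^^^ (bit n 4 * e) ^^^
    (bit n 5 * f)

/-- A map commuting with the group, from the images of the two generators of the module. -/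
def emap (c d n : ℕ) : ℕ :=
  lin ((c ^^^ tau c) ^^^ sig (c ^^^ tau c)) (c ^^^ tau c) c d (d ^^^ sig d)
    ((d ^^^ sig d) ^^^ tau (d ^^^ sig d)) n

/-- The eighth iterate. -/
def it8 (f : ℕ → ℕ) (n : ℕ) : ℕ := f (f (f (f (f (f (f (f n)))))))

/-- The trace on the first summand. -/
def trV (f : ℕ → ℕ) : ℕ := (bit (f 1) 0 + bit (f 2) 1 + bit (f 4) 2) % 2

/-- The trace on the second summand. -/
def trW (f : ℕ → ℕ) : ℕ := (bit (f 8) 3 + bit (f 16) 4 + bit (f 32) 5) % 2

/-- Membership below 64 of all values, and linearity. -/
def actOK : Bool :=
  (List.range 8).all fun i => (List.range 64).all fun n => Nat.blt (act i n) 64 &&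
    Nat.beq (act i n) (lin (act i 1) (act i 2) (act i 4) (act i 8) (act i 16) (act i 32) n)

theorem actOK_true : actOK = true := by decide +kernel

/-- Composition stays in the list. -/
def mulOK : Bool :=
  (List.range 8).all fun i => (List.range 8).all fun j => (List.range 8).any fun k =>
    (List.range 64).all fun n => Nat.beq (act i (act j n)) (act k n)

theorem mulOK_true : mulOK = true := by decide +kernel

/-- The eight elements differ. -/
def distOK : Bool :=
  (List.range 8).all fun i => (List.range i).all fun j =>
    (List.range 64).any fun n => !Nat.beq (act i n) (act j n)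

theorem distOK_true : distOK = true := by decide +kernel

/-- The element is an involution. -/
def isInv (i : ℕ) : Bool :=
  !Nat.beq i 0 && (List.range 64).all fun n => Nat.beq (act i (act i n)) n

/-- Two elements commute. -/
def commI (i j : ℕ) : Bool :=
  (List.range 64).all fun n => Nat.beq (act i (act j n)) (act j (act i n))

/-- The fixed vectors of two elements. -/
def fixList (i j : ℕ) : List ℕ :=
  (List.range 64).filter fun n => Nat.beq (act i n) n && Nat.beq (act j n) n

/-- Fixed vectors of involutions. -/
def fixOK : Bool :=
  (List.range 8).all fun i => !isInv i || (Nat.beq (fixList i i).length 16 &&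
    (List.range 8).all fun j => !isInv j || Nat.beq i j || !commI i j ||
      (Nat.ble (fixList i j).length 8 &&
        (List.range 64).all fun n => Nat.beq (act j (n ^^^ act i n)) (n ^^^ act i n)))

theorem fixOK_true : fixOK = true := by decide +kernel

/-- The generators do not commute. -/
theorem sig_tau_ne : sig (tau 4) ≠ tau (sig 4) := by decide +kernel

/-- The index of a product. -/
def mulI (i j : ℕ) : ℕ :=
  ((List.range 8).find? fun k => (List.range 64).all fun n =>
    Nat.beq (act i (act j n)) (act k n)).getD 0

/-- The endomorphism of the group given by the images of the generators. -/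
def aut (a b : ℕ) : ℕ → ℕ
  | 0 => 0
  | 1 => a
  | 2 => b
  | 3 => mulI a b
  | 4 => mulI b a
  | 5 => mulI (mulI a b) a
  | 6 => mulI (mulI b a) b
  | _ => mulI (mulI (mulI a b) a) b

/-- The fourth power of every automorphism fixes the generators. -/
def autOK : Bool :=
  (List.range 8).all fun a => (List.range 8).all fun b =>
    !(isInv a && isInv b && !commI a b) ||
      (Nat.beq (aut a b (aut a b (aut a b a))) 1 && Nat.beq (aut a b (aut a b (aut a b b))) 2)

theorem autOK_true : autOK = true := by decide +kernel

/-- The pairs giving maps commuting with the group. -/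
def isEnd (c d : ℕ) : Bool :=
  (List.range 6).all fun i => Nat.beq (emap c d (sig (2 ^ i))) (sig (emap c d (2 ^ i))) &&
    Nat.beq (emap c d (tau (2 ^ i))) (tau (emap c d (2 ^ i)))

/-- Injective endomorphisms have order a power of two; endomorphisms with traces one and zero give
idempotents with the required kernel and image. -/
def endOK : Bool :=
  ((List.range 64).filter fun c => Nat.beq (sig c) c).all fun c =>
    ((List.range 64).filter fun d => Nat.beq (tau d) d).all fun d =>
      !isEnd c d ||
        ((((List.range 64).any fun n => !Nat.beq n 0 && Nat.beq (emap c d n) 0) ||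
            (List.range 6).all fun i => Nat.beq (it8 (emap c d) (2 ^ i)) (2 ^ i)) &&
          (!(Nat.beq (trV (emap c d)) 1 && Nat.beq (trW (emap c d)) 0) ||
            (((List.range 6).all fun i => Nat.beq (it8 (emap c d) (it8 (emap c d) (2 ^ i)))
                (it8 (emap c d) (2 ^ i))) &&
              ((List.range 8).all fun x => Nat.beq x 0 ||
                (!Nat.beq (it8 (emap c d) x) 0 && !Nat.beq (it8 (emap c d) (x * 8)) (x * 8))) &&
              ((List.range 8).all fun i => Nat.beq i 0 ||
                (((List.range 64).any fun n =>
                    Nat.beq (it8 (emap c d) n) 0 && !Nat.beq (act i n) n) &&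
                  (List.range 64).any fun n =>
                    Nat.beq (it8 (emap c d) n) n && !Nat.beq (act i n) n)))))

theorem endOK_true : endOK = true := by decide +kernel

/-- On either summand an injective map commuting with an involution has order a power of two. -/
def transOK : Bool :=
  ([1, 8] : List ℕ).all fun m => (List.range 8).all fun i => !isInv i ||
    (List.range 8).all fun a => (List.range 8).all fun b => (List.range 8).all fun c =>
      (let f := lin (a * m) (b * m) (c * m) (a * m) (b * m) (c * m)
      ((List.range 8).any fun x => !Nat.beq x 0 && Nat.beq (f (x * m)) 0) ||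
        ((List.range 8).any fun x => !Nat.beq (f (act i (x * m))) (act i (f (x * m)))) ||
        (List.range 3).all fun j => Nat.beq (it8 f (2 ^ j * m)) (2 ^ j * m))

theorem transOK_true : transOK = true := by decide +kernel

end Cfsg.Agent.M24Type
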