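import Cfsg.Agent.M24Type.Closed
import Cfsg.Agent.M24Type.Linear

set_option autoImplicit false
set_option linter.unusedSectionVars false

/-!
The normaliser of the abelian subgroup of order 64 fixes an idempotent endomorphism splitting it as
two faithful summands: the average of a projection over the cosets of the Sylow subgroup.
-/

namespace Cfsg.Agent.M24Type

open Subgroup
open scoped Classical

variable {G : Type*} [Group G] [Finite G]

namespace Frame

variable {A : Subgroup G} {S : Sylow 2 G} (F : Frame (S : Subgroup G) A)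

/-- The number of the conjugate of the vector with number `n` by `g`. -/
noncomputable def pn (g : G) (n : ℕ) : ℕ :=
  if h : ∃ m < 64, enc F.v m = g * enc F.v n * g⁻¹ then h.choose else 0

theorem pn_lt (g : G) (n : ℕ) : F.pn g n < 64 := by
  unfold pn
  split_ifs with h
  · exact h.choose_spec.1
  · norm_num

theorem conj_mem {g : G} (hg : g ∈ normalizer (A : Set G)) {a : G} (ha : a ∈ A) :
    g * a * g⁻¹ ∈ A := (mem_normalizer_iff.1 hg a).1 ha

include F

theorem enc_pn {g : G} (hg : g ∈ normalizer (A : Set G)) (n : ℕ) :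
    enc F.v (F.pn g n) = g * enc F.v n * g⁻¹ := by
  have h : ∃ m < 64, enc F.v m = g * enc F.v n * g⁻¹ :=
    F.exists_enc (conj_mem hg (F.enc_mem n))
  unfold pn
  rw [dif_pos h]
  exact h.choose_spec.2

theorem lin_pn {g : G} (hg : g ∈ normalizer (A : Set G)) : Lin (F.pn g) :=
  ⟨fun n _ => F.pn_lt g n, fun n hn m hm => F.enc_inj (F.pn_lt g _)
    (xor_lt (F.pn_lt g n) (F.pn_lt g m)) (by
      rw [F.enc_xor, F.enc_pn hg, F.enc_pn hg, F.enc_pn hg, F.enc_xor]; group)⟩

theorem pn_mul {g h : G} (hg : g ∈ normalizer (A : Set G)) (hh : h ∈ normalizer (A : Set G))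
    (n : ℕ) : F.pn (g * h) n = F.pn g (F.pn h n) :=
  F.enc_inj (F.pn_lt _ _) (F.pn_lt _ _) (by
    rw [F.enc_pn (mul_mem hg hh), F.enc_pn hg, F.enc_pn hh]; group)

theorem pn_one {n : ℕ} (hn : n < 64) : F.pn 1 n = n :=
  F.enc_inj (F.pn_lt _ _) hn (by rw [F.enc_pn (one_mem _)]; group)

theorem mem_normalizer_of_mem {x : G} (hx : x ∈ (S : Subgroup G)) :
    x ∈ normalizer (A : Set G) :=
  mem_normalizer_iff.2 fun a => ⟨F.normal hx, fun h => by
    have := F.normal (inv_mem hx) h
    simpa [mul_assoc] using this⟩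

theorem pn_acts {x : G} {i : ℕ} (hx : F.Acts x i) (hn' : x ∈ normalizer (A : Set G)) {n : ℕ}
    (hn : n < 64) : F.pn x n = act i n :=
  F.enc_inj (F.pn_lt _ _) (act_spec hx.1 hn).1 (by rw [F.enc_pn hn', hx.2 n hn])

theorem acts_inv {x : G} {i : ℕ} (hx : F.Acts x i) : F.Acts x⁻¹ (invI i) := by
  obtain ⟨h8, h⟩ := inv_spec i hx.1
  refine ⟨h8, fun n hn => ?_⟩
  have := hx.2 _ (act_spec h8 hn).1
  rw [(h n hn).1] at this
  rw [← this]
  group

/-- The projection of the conjugate of the first summand. -/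
noncomputable def phi (g : G) (n : ℕ) : ℕ := F.pn g (F.pn g⁻¹ n &&& 7)

theorem lin_phi {g : G} (hg : g ∈ normalizer (A : Set G)) : Lin (F.phi g) :=
  (F.lin_pn hg).comp (lin_and7.comp (F.lin_pn (inv_mem hg)))

theorem phi_mul {g h : G} (hg : g ∈ normalizer (A : Set G)) (hh : h ∈ normalizer (A : Set G))
    (n : ℕ) : F.phi (g * h) n = F.pn g (F.phi h (F.pn g⁻¹ n)) := by
  unfold phi
  rw [mul_inv_rev, F.pn_mul (inv_mem hh) (inv_mem hg), F.pn_mul hg hh]

theorem phi_of_mem {x : G} (hx : x ∈ (S : Subgroup G)) {n : ℕ} (hn : n < 64) :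
    F.phi x n = n &&& 7 := by
  obtain ⟨i, hi, -⟩ := F.decompose hx
  have hN := F.mem_normalizer_of_mem hx
  unfold phi
  rw [F.pn_acts (F.acts_inv hi) (inv_mem hN) hn,
    F.pn_acts hi hN (lin_and7.1 _ (act_spec (inv_spec i hi.1).1 hn).1),
    and7_act i hi.1 _ (act_spec (inv_spec i hi.1).1 hn).1, ((inv_spec i hi.1).2 n hn).1]

theorem phi_coset {g x : G} (hg : g ∈ normalizer (A : Set G)) (hx : x ∈ (S : Subgroup G))
    (n : ℕ) : F.phi (g * x) n = F.phi g n := by
  rw [F.phi_mul hg (F.mem_normalizer_of_mem hx), F.phi_of_mem hx (F.pn_lt _ _)]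
  rfl

theorem acts_mulI {x y : G} {i j : ℕ} (hx : F.Acts x i) (hy : F.Acts y j) :
    F.Acts (x * y) (mulI i j) := by
  obtain ⟨l, hl, h⟩ := F.acts_mul hx hy
  have hp : ((List.range 64).all fun n => Nat.beq (act i (act j n)) (act l n)) = true :=
    List.all_eq_true.2 fun n hn => by simp [Nat.beq_eq, h n (List.mem_range.1 hn)]
  cases hfind : (List.range 8).find? fun l => (List.range 64).all fun n =>
      Nat.beq (act i (act j n)) (act l n) with
  | none =>
    rw [List.find?_eq_none] at hfind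
    exact absurd hp (hfind l (List.mem_range.2 hl.1))
  | some m =>
    have hm := List.find?_some hfind
    simp only [List.all_eq_true, List.mem_range] at hm
    have hm8 := List.mem_range.1 (List.mem_of_find?_eq_some hfind)
    have e : mulI i j = m := by simp only [mulI, hfind, Option.getD_some]
    rw [e, act_inj hm8 hl.1 fun n hn =>
      (Nat.eq_of_beq_eq_true (hm n hn)).symm.trans (h n hn)]
    exact hl

theorem exists_word {i : ℕ} (hi : i < 8) :
    ∃ w : G, w ∈ (S : Subgroup G) ∧ F.Acts w i ∧ ∀ (k : G) (a b : ℕ),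
      F.Acts (k * F.s * k⁻¹) a → F.Acts (k * F.t * k⁻¹) b →
      F.Acts (k * w * k⁻¹) (aut a b i) := by
  have hc : ∀ k x y : G, k * (x * y) * k⁻¹ = k * x * k⁻¹ * (k * y * k⁻¹) :=
    fun k x y => by group
  have key : ∀ {x y : G} {i j : ℕ} (l : ℕ), l < 8 → F.Acts x i → F.Acts y j →
      (∀ n < 64, act i (act j n) = act l n) → F.Acts (x * y) l := by
    intro x y i j l hl hx hy h
    obtain ⟨l', hl', h'⟩ := F.acts_mul hx hy
    rw [act_inj hl hl'.1 fun n hn => (h n hn).symm.trans (h' n hn)]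
    exact hl'
  have hs := F.acts_s
  have ht := F.acts_t
  have h3 : F.Acts (F.s * F.t) 3 := key 3 (by norm_num) hs ht (fun n _ => rfl)
  have h4 : F.Acts (F.t * F.s) 4 := key 4 (by norm_num) ht hs (fun n _ => rfl)
  have h5 : F.Acts (F.s * F.t * F.s) 5 := key 5 (by norm_num) h3 hs (fun n _ => rfl)
  have h6 : F.Acts (F.t * F.s * F.t) 6 := key 6 (by norm_num) h4 ht (fun n _ => rfl)
  have h7 : F.Acts (F.s * F.t * F.s * F.t) 7 := key 7 (by norm_num) h5 ht (fun n _ => rfl)
  interval_cases i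
  · refine ⟨1, one_mem _, F.acts_of_mem (one_mem A), fun k a b _ _ => ?_⟩
    rw [mul_one, mul_inv_cancel]
    exact F.acts_of_mem (one_mem A)
  · exact ⟨_, F.hs, hs, fun k a b ha _ => ha⟩
  · exact ⟨_, F.ht, ht, fun k a b _ hb => hb⟩
  · exact ⟨_, mul_mem F.hs F.ht, h3, fun k a b ha hb => hc k _ _ ▸ F.acts_mulI ha hb⟩
  · exact ⟨_, mul_mem F.ht F.hs, h4, fun k a b ha hb => hc k _ _ ▸ F.acts_mulI hb ha⟩
  · refine ⟨_, mul_mem (mul_mem F.hs F.ht) F.hs, h5, fun k a b ha hb => ?_⟩
    rw [hc, hc]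
    exact F.acts_mulI (F.acts_mulI ha hb) ha
  · refine ⟨_, mul_mem (mul_mem F.ht F.hs) F.ht, h6, fun k a b ha hb => ?_⟩
    rw [hc, hc]
    exact F.acts_mulI (F.acts_mulI hb ha) hb
  · refine ⟨_, mul_mem (mul_mem (mul_mem F.hs F.ht) F.hs) F.ht, h7, fun k a b ha hb => ?_⟩
    rw [hc, hc, hc]
    exact F.acts_mulI (F.acts_mulI (F.acts_mulI ha hb) ha) hb

theorem acts_conj {k x : G} (hk : k ∈ normalizer (A : Set G)) {i a b : ℕ} (hx : F.Acts x i)
    (ha : F.Acts (k * F.s * k⁻¹) a) (hb : F.Acts (k * F.t * k⁻¹) b) :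
    F.Acts (k * x * k⁻¹) (aut a b i) := by
  obtain ⟨w, -, hw, hkw⟩ := F.exists_word hx.1
  have hj := hkw k a b ha hb
  refine ⟨hj.1, fun n hn => ?_⟩
  obtain ⟨m, hm, he⟩ := F.exists_enc (conj_mem (inv_mem hk) (F.enc_mem n))
  rw [inv_inv] at he
  calc k * x * k⁻¹ * enc F.v n * (k * x * k⁻¹)⁻¹
      = k * (x * (k⁻¹ * enc F.v n * k) * x⁻¹) * k⁻¹ := by group
    _ = k * (w * (k⁻¹ * enc F.v n * k) * w⁻¹) * k⁻¹ := by rw [← he, hx.2 m hm, hw.2 m hm]
    _ = k * w * k⁻¹ * enc F.v n * (k * w * k⁻¹)⁻¹ := by group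
    _ = _ := hj.2 n hn

theorem acts_of_eq {x y : G} {i : ℕ} (hx : F.Acts x i) (hy : y ∈ (S : Subgroup G))
    (h : ∀ n < 64, y * enc F.v n * y⁻¹ = x * enc F.v n * x⁻¹) : F.Acts y i :=
  ⟨hx.1, fun n hn => (h n hn).trans (hx.2 n hn)⟩

theorem conj_pair {k : G} (hk : k ∈ normalizer (A : Set G)) {a b : ℕ}
    (ha : F.Acts (k * F.s * k⁻¹) a) (hb : F.Acts (k * F.t * k⁻¹) b) :
    isInv a = true ∧ isInv b = true ∧ commI a b = false := by
  have hki := inv_mem hk
  have hsa : ∀ {x : G} {i c : ℕ}, F.Acts x i → invI i = i → i ≠ 0 →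
      F.Acts (k * x * k⁻¹) c → isInv c = true := by
    intro x i c hx hii hne hc
    simp only [isInv, Bool.and_eq_true, Bool.not_eq_true', List.all_eq_true, List.mem_range]
    have hinv : ∀ m < 64, act i (act i m) = m := fun m hm => by
      have := ((inv_spec i hx.1).2 m hm).1
      rwa [hii] at this
    have hsplit : ∀ n < 64, ∃ m < 64, enc F.v n = k * enc F.v m * k⁻¹ := fun n _ => by
      obtain ⟨m, hm, he⟩ := F.exists_enc (conj_mem hki (F.enc_mem n))
      exact ⟨m, hm, by rw [he]; group⟩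
    refine ⟨?_, fun n hn => ?_⟩
    · cases hb' : Nat.beq c 0
      · rfl
      · refine absurd (act_inj hx.1 (by norm_num) fun m hm => ?_) hne
        have hc0 : c = 0 := Nat.eq_of_beq_eq_true hb'
        obtain ⟨m', hm', he⟩ := F.exists_enc (conj_mem hk (F.enc_mem m))
        have h1 := hc.2 m' hm'
        rw [hc0, show act 0 m' = m' from rfl, he] at h1
        show act i m = m
        refine F.enc_inj (act_spec hx.1 hm).1 hm ?_
        rw [← hx.2 m hm]
        apply (MulAut.conj k).injective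
        simpa [mul_assoc] using h1
    · obtain ⟨m, hm, he⟩ := hsplit n hn
      have h1 : enc F.v (act c n) = k * enc F.v (act i m) * k⁻¹ := by
        rw [← hc.2 n hn, he, ← hx.2 m hm]; group
      have h2 : enc F.v (act c (act c n)) = enc F.v n := by
        rw [← hc.2 _ (act_spec hc.1 hn).1, h1, he]
        have h3 : x * enc F.v (act i m) * x⁻¹ = enc F.v m := by
          rw [hx.2 _ (act_spec hx.1 hm).1, hinv m hm]
        rw [← h3]
        group
      simp [Nat.beq_eq, F.enc_inj (act_spec hc.1 (act_spec hc.1 hn).1).1 hn h2]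
  refine ⟨hsa F.acts_s rfl (by norm_num) ha, hsa F.acts_t rfl (by norm_num) hb, ?_⟩
  by_contra hc
  simp only [Bool.not_eq_false, commI, List.all_eq_true, List.mem_range] at hc
  have h4 : 4 < 64 := by norm_num
  refine sig_tau_ne (F.enc_inj (act_spec (i := 3) (by norm_num) h4).1
    (act_spec (i := 4) (by norm_num) h4).1 ?_)
  show enc F.v (act 1 (act 2 4)) = enc F.v (act 2 (act 1 4))
  rw [← F.acts_s.2 _ (act_spec (i := 2) (by norm_num) h4).1, ← F.acts_t.2 _ h4,
    ← F.acts_t.2 _ (act_spec (i := 1) (by norm_num) h4).1, ← F.acts_s.2 _ h4]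
  obtain ⟨m, hm, hme⟩ := F.exists_enc (conj_mem hk (F.enc_mem 4))
  have h1 : enc F.v (act a (act b m)) = enc F.v (act b (act a m)) := by
    rw [Nat.eq_of_beq_eq_true (hc m hm)]
  rw [← ha.2 _ (act_spec hb.1 hm).1, ← hb.2 _ hm, ← hb.2 _ (act_spec ha.1 hm).1, ← ha.2 _ hm,
    hme] at h1
  apply (MulAut.conj k).injective
  simpa [mul_assoc] using h1

theorem pow_four_commutes {k : G} (hk : k ∈ normalizer (A : Set G))
    (hS : k ∈ normalizer ((S : Subgroup G) : Set G)) :
    (∀ n < 64, F.pn (k ^ 4) (sig n) = sig (F.pn (k ^ 4) n)) ∧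
      ∀ n < 64, F.pn (k ^ 4) (tau n) = tau (F.pn (k ^ 4) n) := by
  obtain ⟨a, ha, -⟩ := F.decompose ((mem_normalizer_iff.1 hS _).1 F.hs)
  obtain ⟨b, hb, -⟩ := F.decompose ((mem_normalizer_iff.1 hS _).1 F.ht)
  obtain ⟨hia, hib, hcab⟩ := F.conj_pair hk ha hb
  have h := autOK_true
  simp only [autOK, List.all_eq_true, List.mem_range, Bool.or_eq_true, Bool.and_eq_true,
    Bool.not_eq_true'] at h
  have hab := h a ha.1 b hb.1
  rw [hia, hib, hcab] at hab
  obtain ⟨h1, h2⟩ := hab.resolve_left (by simp)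
  have hfix : ∀ {x : G} {i i' : ℕ}, F.Acts (k * x * k⁻¹) i' →
      Nat.beq (aut a b (aut a b (aut a b i'))) i = true →
      F.Acts (k ^ 4 * x * (k ^ 4)⁻¹) i := by
    intro x i i' h1 he
    have h4 := F.acts_conj hk (F.acts_conj hk (F.acts_conj hk h1 ha hb) ha hb) ha hb
    rw [Nat.eq_of_beq_eq_true he] at h4
    simpa [pow_succ, mul_assoc] using h4
  have hk4 : k ^ 4 ∈ normalizer (A : Set G) := pow_mem hk 4
  have hcomm : ∀ {x : G} {i : ℕ}, F.Acts x i → F.Acts (k ^ 4 * x * (k ^ 4)⁻¹) i →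
      ∀ n < 64, F.pn (k ^ 4) (act i n) = act i (F.pn (k ^ 4) n) := by
    intro x i hx hx' n hn
    refine F.enc_inj (F.pn_lt _ _) (act_spec hx.1 (F.pn_lt _ _)).1 ?_
    rw [F.enc_pn hk4, ← hx.2 n hn, ← hx'.2 _ (F.pn_lt _ _), F.enc_pn hk4]
    group
  have hs' := hcomm F.acts_s (hfix (i := 1) ha h1)
  have ht' := hcomm F.acts_t (hfix (i := 2) hb h2)
  exact ⟨fun n hn => hs' n hn, fun n hn => ht' n hn⟩

/-- An element of odd order normalising `S` and `A` centralises `A`. -/
theorem odd_normalizing {k : G} (hk : k ∈ normalizer (A : Set G))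
    (hS : k ∈ normalizer ((S : Subgroup G) : Set G)) (hodd : Odd (orderOf k)) {n : ℕ}
    (hn : n < 64) : F.pn k n = n := by
  have hk4 : k ^ 4 ∈ normalizer (A : Set G) := pow_mem hk 4
  obtain ⟨hs, ht⟩ := F.pow_four_commutes hk hS
  have h8 := (end_spec (F.lin_pn hk4) hs ht).1 fun n hn h => by
    have := F.enc_pn hk4 n
    rw [h, F.enc_zero] at this
    exact F.inj n hn (conj_eq_one_iff.1 this.symm)
  have hit : ∀ j : ℕ, ∀ m < 64, F.pn ((k ^ 4) ^ j) m = (F.pn (k ^ 4))^[j] m := by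
    intro j
    induction j with
    | zero => intro m hm; rw [pow_zero, F.pn_one hm]; rfl
    | succ j ih =>
      intro m hm
      rw [pow_succ, F.pn_mul (pow_mem hk4 j) hk4, ih _ (F.pn_lt _ _), Function.iterate_succ_apply]
  have h32 : ∀ m < 64, F.pn (k ^ 32) m = m := fun m hm => by
    rw [show k ^ 32 = (k ^ 4) ^ 8 by rw [← pow_mul], hit 8 m hm]
    exact h8 m hm
  have hco : Nat.Coprime 32 (orderOf k) := by
    rw [show (32 : ℕ) = 2 ^ 5 by norm_num]
    exact (Nat.coprime_two_left.2 hodd).pow_left 5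
  obtain ⟨r, hr⟩ := exists_pow_eq_self_of_coprime hco
  have hrpow : ∀ r m, m < 64 → F.pn ((k ^ 32) ^ r) m = m := by
    intro r
    induction r with
    | zero => intro m hm; rw [pow_zero, F.pn_one hm]
    | succ r ih =>
      intro m hm
      rw [pow_succ, F.pn_mul (pow_mem (pow_mem hk _) r) (pow_mem hk _), h32 m hm, ih m hm]
  rw [← hr]
  exact hrpow r n hn

/-- The cosets of the Sylow subgroup in the normaliser. -/
abbrev Cos (_F : Frame (S : Subgroup G) A) :=
  ↥(normalizer (A : Set G)) ⧸ (S : Subgroup G).subgroupOf (normalizer (A : Set G))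

noncomputable instance : Fintype F.Cos := Fintype.ofFinite _

/-- The average of the projections. -/
noncomputable def avg (n : ℕ) : ℕ :=
  xsum ((Finset.univ : Finset F.Cos).toList.map fun c => F.phi (c.out : G) n)

theorem lin_avg : Lin F.avg := by
  refine ⟨fun n hn => xsum_lt fun x hx => ?_, fun n hn m hm => ?_⟩
  · obtain ⟨c, -, rfl⟩ := List.mem_map.1 hx
    exact (F.lin_phi c.out.2).1 n hn
  · unfold avg
    rw [← xsum_map_xor]
    congr 1
    exact List.map_congr_left fun c _ => (F.lin_phi c.out.2).2 n hn m hm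

theorem phi_smul (h : ↥(normalizer (A : Set G))) (c : F.Cos) (n : ℕ) :
    F.phi ((h • c).out : G) n = F.pn h (F.phi (c.out : G) (F.pn (h : G)⁻¹ n)) := by
  obtain ⟨s, hs⟩ := QuotientGroup.mk_out_eq_mul
    ((S : Subgroup G).subgroupOf (normalizer (A : Set G))) (h * c.out)
  have e : h • c = QuotientGroup.mk (h * c.out) := by
    conv_lhs => rw [← QuotientGroup.out_eq' c]
    rfl
  rw [e, hs, Subgroup.coe_mul]
  refine (F.phi_coset (h * c.out).2 s.2 n).trans ?_
  rw [Subgroup.coe_mul,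
    F.phi_mul h.2 c.out.2]

theorem avg_comm {h : G} (hh : h ∈ normalizer (A : Set G)) {n : ℕ} (hn : n < 64) :
    F.avg (F.pn h n) = F.pn h (F.avg n) := by
  unfold avg
  rw [(F.lin_pn hh).apply_xsum _ _ fun c _ => (F.lin_phi c.out.2).1 n hn]
  let e := MulAction.toPerm (α := ↥(normalizer (A : Set G))) (β := F.Cos) ⟨h, hh⟩
  rw [← xsum_perm ((((List.perm_of_nodup_nodup_toFinset_eq
    ((Finset.nodup_toList _).map e.injective) (Finset.nodup_toList _) (by
      ext c
      simp only [List.mem_toFinset, List.mem_map, Finset.mem_toList, Finset.mem_univ, iff_true]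
      exact ⟨e.symm c, trivial, e.apply_symm_apply c⟩) :
      ((Finset.univ : Finset F.Cos).toList.map e).Perm _)).map fun c =>
    F.phi (c.out : G) (F.pn h n))), List.map_map]
  congr 1
  refine List.map_congr_left fun c _ => ?_
  show F.phi (((⟨h, hh⟩ : ↥(normalizer (A : Set G))) • c).out : G) (F.pn h n) = _
  rw [F.phi_smul]
  have : F.pn h⁻¹ (F.pn h n) = n := by
    rw [← F.pn_mul (inv_mem hh) hh, inv_mul_cancel, F.pn_one hn]
  simp only [this]

theorem trace_smul (x : ↥((S : Subgroup G).subgroupOf (normalizer (A : Set G)))) (c : F.Cos) :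
    trV (F.phi (((x : ↥(normalizer (A : Set G))) • c).out : G)) = trV (F.phi (c.out : G)) ∧
      trW (F.phi (((x : ↥(normalizer (A : Set G))) • c).out : G)) = trW (F.phi (c.out : G)) := by
  obtain ⟨i, hi, -⟩ := F.decompose (show (x.1 : G) ∈ (S : Subgroup G) from x.2)
  have hN := (x : ↥(normalizer (A : Set G))).2
  have e : ∀ n < 64, F.phi (((x : ↥(normalizer (A : Set G))) • c).out : G) n =
      (act i ∘ F.phi (c.out : G) ∘ act (invI i)) n := by
    intro n hn
    rw [F.phi_smul, F.pn_acts (F.acts_inv hi) (inv_mem hN) hn,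
      F.pn_acts hi hN ((F.lin_phi c.out.2).1 _ (act_spec (inv_spec i hi.1).1 hn).1)]
    rfl
  obtain ⟨h1, h2⟩ := tr_conj_act (F.lin_phi c.out.2) i hi.1
  refine ⟨?_, ?_⟩
  · rw [← h1]
    simp only [trV]
    rw [e 1 (by norm_num), e 2 (by norm_num), e 4 (by norm_num)]
  · rw [← h2]
    simp only [trW]
    rw [e 8 (by norm_num), e 16 (by norm_num), e 32 (by norm_num)]

theorem trace_fixed {c : F.Cos}
    (hc : ∀ x : ↥((S : Subgroup G).subgroupOf (normalizer (A : Set G))),
      (x : ↥(normalizer (A : Set G))) • c = c) {n : ℕ} (hn : n < 64) :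
    F.phi (c.out : G) n = n &&& 7 := by
  set g := (c.out : G) with hg
  have hgN : g ∈ normalizer (A : Set G) := c.out.2
  have hgS : ∀ x ∈ (S : Subgroup G), g⁻¹ * x * g ∈ (S : Subgroup G) := by
    intro x hx
    have h := hc ⟨⟨x, F.mem_normalizer_of_mem hx⟩, hx⟩
    conv at h => lhs; rw [← QuotientGroup.out_eq' c]
    conv at h => rhs; rw [← QuotientGroup.out_eq' c]
    have h' := QuotientGroup.eq.1 h.symm
    rw [mem_subgroupOf] at h'
    simpa [hg, mul_assoc] using h'
  have hgNS : g ∈ normalizer ((S : Subgroup G) : Set G) := by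
    have : g⁻¹ ∈ normalizer ((S : Subgroup G) : Set G) := by
      let f : ↥(S : Subgroup G) → ↥(S : Subgroup G) := fun x => ⟨g⁻¹ * (x : G) * g, hgS x x.2⟩
      have hf : Function.Injective f := fun x y h => Subtype.ext (by
        have h' : g⁻¹ * (x : G) * g = g⁻¹ * (y : G) * g := congrArg Subtype.val h
        exact mul_left_cancel (mul_right_cancel h'))
      have hb := Finite.injective_iff_bijective.1 hf
      refine mem_normalizer_iff.2 fun x => ⟨fun hx => by simpa using hgS x hx, fun hx => ?_⟩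
      obtain ⟨y, hy⟩ := hb.2 ⟨g⁻¹ * x * g⁻¹⁻¹, hx⟩
      have h : g⁻¹ * (y : G) * g = g⁻¹ * x * g⁻¹⁻¹ := congrArg Subtype.val hy
      rw [inv_inv] at h
      have : x = y := (mul_left_cancel (mul_right_cancel h)).symm
      rw [this]
      exact y.2
    simpa using inv_mem this
  -- split into parts of 2-power and odd order
  obtain ⟨e, m, hm, ho⟩ := Nat.exists_eq_two_pow_mul_odd (orderOf_pos g).ne'
  have hco : Nat.Coprime (2 ^ e) m := (Nat.coprime_two_left.2 hm).pow_left e
  obtain ⟨p, q, hpq⟩ : ∃ p q : ℤ, (1 : ℤ) = (2 ^ e : ℕ) * p + (m : ℕ) * q := by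
    exact ⟨_, _, hco ▸ Nat.gcd_eq_gcd_ab (2 ^ e) m⟩
  set k := (g ^ (2 ^ e)) ^ p with hk
  set u := (g ^ m) ^ q with hu
  have hgku : g = k * u := by
    rw [hk, hu, ← zpow_natCast, ← zpow_natCast g m, ← zpow_mul, ← zpow_mul, ← zpow_add, ← hpq,
      zpow_one]
  have hu2 : u ^ (2 ^ e) = 1 := by
    rw [hu, ← zpow_natCast ((g ^ m) ^ q), ← zpow_mul, mul_comm q, zpow_mul, zpow_natCast,
      ← pow_mul, mul_comm m, ← ho, pow_orderOf_eq_one, one_zpow]
  have huS : u ∈ (S : Subgroup G) := by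
    haveI : Fact (Nat.Prime 2) := ⟨Nat.prime_two⟩
    have hp : IsPGroup 2 (zpowers u) := by
      obtain ⟨l, -, hl⟩ := (Nat.dvd_prime_pow Nat.prime_two).1 (orderOf_dvd_of_pow_eq_one hu2)
      exact IsPGroup.of_card (by rw [Nat.card_zpowers, hl])
    have hn' : zpowers u ≤ normalizer ((S : Subgroup G) : Set G) :=
      zpowers_le.2 (zpow_mem (pow_mem hgNS m) q)
    have hsup := IsPGroup.to_sup_of_normal_right' hp S.2 hn'
    have := S.3 hsup le_sup_right
    rw [← this]
    exact SetLike.le_def.1 le_sup_left (mem_zpowers u)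
  have hkodd : Odd (orderOf k) := by
    have : k ^ m = 1 := by
      rw [hk, ← zpow_natCast ((g ^ 2 ^ e) ^ p), ← zpow_mul, mul_comm p, zpow_mul, zpow_natCast,
        ← pow_mul, ← ho, pow_orderOf_eq_one, one_zpow]
    exact Odd.of_dvd_nat hm (orderOf_dvd_of_pow_eq_one this)
  have hkN : k ∈ normalizer (A : Set G) := zpow_mem (pow_mem hgN _) p
  have hkS : k ∈ normalizer ((S : Subgroup G) : Set G) := zpow_mem (pow_mem hgNS _) p
  have hk1 : ∀ m < 64, F.pn k m = m := fun m hm => F.odd_normalizing hkN hkS hkodd hm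
  have hk1' : F.pn k⁻¹ n = n := by
    have h := F.pn_mul (inv_mem hkN) hkN n
    rw [inv_mul_cancel, F.pn_one hn, hk1 n hn] at h
    exact h.symm
  rw [hgku, F.phi_mul hkN (F.mem_normalizer_of_mem huS), hk1',
    F.phi_of_mem huS hn, hk1 _ (lin_and7.1 n hn)]

theorem avg_traces : trV F.avg = 1 ∧ trW F.avg = 0 := by
  haveI : Fact (Nat.Prime 2) := ⟨Nat.prime_two⟩
  set N := normalizer (A : Set G)
  set U := (S : Subgroup G).subgroupOf N
  have hU : IsPGroup 2 U := S.2.comap_of_injective N.subtype Subtype.val_injective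
  have hodd : Odd (Nat.card F.Cos) := by
    rw [← Subgroup.index_eq_card, Nat.odd_iff]
    have h1 : U.index = (S : Subgroup G).relIndex N := rfl
    have h2 : (S : Subgroup G).relIndex N ∣ (S : Subgroup G).index :=
      Subgroup.relIndex_dvd_index_of_le fun x hx => F.mem_normalizer_of_mem hx
    have h3 : ¬ 2 ∣ (S : Subgroup G).index := S.not_dvd_index
    rw [h1]
    rcases Nat.mod_two_eq_zero_or_one ((S : Subgroup G).relIndex N) with h | h
    · exact absurd ((Nat.dvd_of_mod_eq_zero h).trans h2) h3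
    · exact h
  have hcount : ∀ (χ : F.Cos → ℕ) (w : ℕ), (∀ c, χ c ≤ 1) → w ≤ 1 →
      (∀ (x : U) (c : F.Cos), χ ((x : N) • c) = χ c) →
      (∀ c, (∀ x : U, (x : N) • c = c) → χ c = w) →
      ((Finset.univ : Finset F.Cos).toList.map χ).sum % 2 = w := by
    intro χ w hle hw hinv hfix
    letI act' : MulAction U {c : F.Cos // χ c = 1} :=
      { smul := fun x c => ⟨(x : N) • c.1, (hinv x c.1).trans c.2⟩
        one_smul := fun c => Subtype.ext (one_smul N c.1)
        mul_smul := fun x y c => Subtype.ext (mul_smul (x : N) (y : N) c.1) }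
    have e1 : ((Finset.univ : Finset F.Cos).toList.map χ).sum =
        Nat.card {c : F.Cos // χ c = 1} := by
      rw [Finset.sum_map_toList, Nat.card_eq_fintype_card, Fintype.card_subtype,
        Finset.card_filter]
      refine Finset.sum_congr rfl fun c _ => ?_
      have := hle c
      split_ifs with h <;> omega
    rw [e1]
    have h1 : Nat.card {c : F.Cos // χ c = 1} ≡
        Nat.card (MulAction.fixedPoints U {c : F.Cos // χ c = 1}) [MOD 2] :=
      hU.card_modEq_card_fixedPoints _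
    have h2 : Nat.card F.Cos ≡ Nat.card (MulAction.fixedPoints U F.Cos) [MOD 2] :=
      hU.card_modEq_card_fixedPoints _
    rw [h1]
    rcases Nat.le_one_iff_eq_zero_or_eq_one.1 hw with rfl | rfl
    · have : IsEmpty (MulAction.fixedPoints U {c : F.Cos // χ c = 1}) := ⟨fun ⟨c, hc⟩ => by
        have := hfix c.1 fun x => congrArg Subtype.val (hc x)
        rw [c.2] at this
        exact absurd this one_ne_zero⟩
      rw [Nat.card_of_isEmpty]
    · let e : MulAction.fixedPoints U {c : F.Cos // χ c = 1} ≃ MulAction.fixedPoints U F.Cos :=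
        { toFun := fun c => ⟨c.1.1, fun x => congrArg Subtype.val (c.2 x)⟩
          invFun := fun c => ⟨⟨c.1, hfix c.1 c.2⟩, fun x => Subtype.ext (c.2 x)⟩
          left_inv := fun c => rfl
          right_inv := fun c => rfl }
      rw [Nat.card_congr e, ← h2, ← Nat.odd_iff]
      exact hodd
  have hsum : ∀ (n i : ℕ), bit (F.avg n) i =
      ((Finset.univ : Finset F.Cos).toList.map fun c => bit (F.phi (c.out : G) n) i).sum % 2 :=
    fun n i => bit_xsum _ i _
  have hadd : ∀ (f g h : F.Cos → ℕ) (L : List F.Cos),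
      ((L.map f).sum % 2 + (L.map g).sum % 2 + (L.map h).sum % 2) % 2 =
        (L.map fun c => (f c + g c + h c) % 2).sum % 2 := by
    intro f g h L
    induction L with
    | nil => rfl
    | cons c L ih => simp only [List.map_cons, List.sum_cons]; omega
  constructor
  · rw [trV, hsum, hsum, hsum, hadd]
    exact hcount (fun c => trV (F.phi (c.out : G))) 1
      (fun c => Nat.le_of_lt_succ (Nat.mod_lt _ (by norm_num))) le_rfl
      (fun x c => (F.trace_smul x c).1) fun c hc => by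
        show trV (F.phi (c.out : G)) = 1
        unfold trV
        rw [F.trace_fixed hc (n := 1) (by norm_num), F.trace_fixed hc (n := 2) (by norm_num),
          F.trace_fixed hc (n := 4) (by norm_num)]
        rfl
  · rw [trW, hsum, hsum, hsum, hadd]
    exact hcount (fun c => trW (F.phi (c.out : G))) 0
      (fun c => Nat.le_of_lt_succ (Nat.mod_lt _ (by norm_num))) (by norm_num)
      (fun x c => (F.trace_smul x c).2) fun c hc => by
        show trW (F.phi (c.out : G)) = 0
        unfold trW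
        rw [F.trace_fixed hc (n := 8) (by norm_num), F.trace_fixed hc (n := 16) (by norm_num),
          F.trace_fixed hc (n := 32) (by norm_num)]
        rfl

/-- The idempotent. -/
noncomputable def proj : ℕ → ℕ := it8 F.avg

theorem proj_spec : Lin F.proj ∧
    (∀ h ∈ normalizer (A : Set G), ∀ n < 64, F.proj (F.pn h n) = F.pn h (F.proj n)) ∧
    (∀ n < 64, F.proj (F.proj n) = F.proj n) ∧
    (∀ x < 8, x ≠ 0 → F.proj x ≠ 0 ∧ F.proj (x * 8) ≠ x * 8) ∧
    ∀ i < 8, i ≠ 0 → (∃ n < 64, F.proj n = 0 ∧ act i n ≠ n) ∧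
      ∃ n < 64, F.proj n = n ∧ act i n ≠ n := by
  have hs : ∀ n < 64, F.avg (sig n) = sig (F.avg n) := fun n hn => by
    have hN := F.mem_normalizer_of_mem F.hs
    show F.avg (act 1 n) = act 1 (F.avg n)
    rw [← F.pn_acts F.acts_s hN hn, F.avg_comm hN hn, F.pn_acts F.acts_s hN (F.lin_avg.1 n hn)]
  have ht : ∀ n < 64, F.avg (tau n) = tau (F.avg n) := fun n hn => by
    have hN := F.mem_normalizer_of_mem F.ht
    show F.avg (act 2 n) = act 2 (F.avg n)
    rw [← F.pn_acts F.acts_t hN hn, F.avg_comm hN hn, F.pn_acts F.acts_t hN (F.lin_avg.1 n hn)]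
  refine ⟨F.lin_avg.it8, fun h hh n hn => ?_,
    (end_spec F.lin_avg hs ht).2 F.avg_traces.1 F.avg_traces.2⟩
  have hl := F.lin_avg.1
  simp only [proj, it8]
  rw [F.avg_comm hh hn, F.avg_comm hh (hl _ hn), F.avg_comm hh (hl _ (hl _ hn)),
    F.avg_comm hh (hl _ (hl _ (hl _ hn))), F.avg_comm hh (hl _ (hl _ (hl _ (hl _ hn)))),
    F.avg_comm hh (hl _ (hl _ (hl _ (hl _ (hl _ hn))))),
    F.avg_comm hh (hl _ (hl _ (hl _ (hl _ (hl _ (hl _ hn)))))),
    F.avg_comm hh (hl _ (hl _ (hl _ (hl _ (hl _ (hl _ (hl _ hn)))))))]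

end Frame

end Cfsg.Agent.M24Type
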