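import Cfsg.Agent.Golay.SylowModCenterData
import Cfsg.Agent.M24Type.Model

set_option autoImplicit false

/-!
The witness codes for the frame of a Sylow 2-subgroup of M24 modulo its centre.
-/

namespace Cfsg.Agent.M24Type

open Cfsg.Agent.Golay Cfsg.Agent.SchurCert

/-- The codes of the basis and of the two generators. -/
def wit : List ℕ :=
  [0x63ead88a64b3a975a548394d01c820, 0x950769de2469de25a548718b0ab020,
    0xb5eb28d27061c4f4254b718a41b420, 0xbda14449757a9ac8b8f348403208c5,
    0xbd834549267a1ac3ce2e5c08500aa3, 0xbd8f42c8c978dac09200ac66a70968,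
    0x63eb44c946b1db74466b7408518820, 0xbd1d68ca696d5ec59208194ca38820]

/-- The code of the product selected by a number. -/
def encC (n : ℕ) : ℕ :=
  let p := fun i => bif n.testBit i then wit.getD i permOne else permOne
  permMul (permMul (permMul (permMul (permMul (p 0) (p 1)) (p 2)) (p 3)) (p 4)) (p 5)

/-- The checks. -/
def witOK (z : ℕ) (L : List ℕ) : Bool :=
  wit.all (fun c => L.any fun y => Nat.beq c y) &&
    ((List.range 6).all fun i => (List.range 64).any fun k =>
      sameMod z (m24ModData.aEls.getD k 0) (wit.getD i permOne)) &&
    ((List.range 64).all fun n => Nat.beq n 0 || !sameMod z (encC n) permOne) &&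
    (List.range 6).all fun i =>
      sameMod z (permMul (wit.getD 6 permOne) (wit.getD i permOne))
          (permMul (encC (sig (2 ^ i))) (wit.getD 6 permOne)) &&
        sameMod z (permMul (wit.getD 7 permOne) (wit.getD i permOne))
          (permMul (encC (tau (2 ^ i))) (wit.getD 7 permOne))

theorem witOK_true : witOK (m24FusCert.gimg m24FusCert.zW) m24SylList = true := by decide +kernel

end Cfsg.Agent.M24Type
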