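import Cfsg.Agent.M24Type.WitnessCode
import Cfsg.Agent.M24Type.Frame
import Cfsg.Agent.M24Type.WitnessData

set_option autoImplicit false

/-!
The quotient of a Sylow 2-subgroup of M24 by its centre has the module structure of the frame.
-/

open Cfsg

namespace Cfsg.Agent.M24Type

open Cfsg.Agent.Golay Cfsg.Agent.SchurCert
open scoped Pointwise


attribute [local irreducible] permMul FusCert.gimg m24SylList Cert.layer encC wit

theorem witOK_spec {z : ℕ} {L : List ℕ} (h : witOK z L = true) :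
    (∀ c ∈ wit, ∃ y ∈ L, c = y) ∧
    (∀ i < 6, ∃ k < 64, sameMod z (m24ModData.aEls.getD k 0) (wit.getD i permOne) = true) ∧
    (∀ n < 64, n = 0 ∨ sameMod z (encC n) permOne = false) ∧
    ∀ i < 6, sameMod z (permMul (wit.getD 6 permOne) (wit.getD i permOne))
          (permMul (encC (sig (2 ^ i))) (wit.getD 6 permOne)) = true ∧
        sameMod z (permMul (wit.getD 7 permOne) (wit.getD i permOne))
          (permMul (encC (tau (2 ^ i))) (wit.getD 7 permOne)) = true := by
  simp only [witOK, List.all_eq_true, List.any_eq_true, List.mem_range, Bool.and_eq_true,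
    Bool.or_eq_true, Bool.not_eq_true'] at h
  obtain ⟨⟨⟨h1, h2⟩, h3⟩, h4⟩ := h
  exact ⟨fun c hc => (h1 c hc).imp fun y hy => ⟨hy.1, Nat.eq_of_beq_eq_true hy.2⟩, h2,
    fun n hn => (h3 n hn).imp_left Nat.eq_of_beq_eq_true, h4⟩

theorem code_pw {G : Type} [Group G] (code : G → ℕ) (x : G) (b : Bool) {c d : ℕ} (h1 : code 1 = d)
    (h : code x = c) : code (pw x b) = bif b then c else d := by
  cases b
  · exact h1
  · exact h

theorem map_pw {G Q : Type} [Group G] [Group Q] (q : G →* Q) (x : G) (b : Bool) :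
    q (pw x b) = pw (q x) b := by
  cases b
  · exact map_one q
  · rfl

theorem exists_frame_of_code {G Q : Type} [Group G] [Finite G] [Group Q] [Finite Q] (q : G →* Q)
    (hq : Function.Surjective q) (code : G → ℕ) (zc : ℕ) (L : List ℕ)
    (hmul : ∀ a b, code (a * b) = permMul (code a) (code b)) (hone : code 1 = permOne)
    (hsame : ∀ a b, q a = q b ↔ sameMod zc (code a) (code b) = true)
    (hL : ∀ a, code a ∈ L) (hL' : ∀ c ∈ L, ∃ a, code a = c)
    (hwit : witOK zc L = true) (hab : m24ModData.abOK zc L = true)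
    (hco : m24ModData.cosetOK zc L = true) :
    ∃ A : Subgroup Q, ∃ (v : ℕ → Q) (s t : Q),
      Cfsg.IsElementaryAbelian 2 A ∧ Nat.card A = 64 ∧ (∀ i < 6, v i ∈ A) ∧
      (∀ n < 64, enc v n = 1 → n = 0) ∧
      (∀ i < 6, s * v i * s⁻¹ = enc v (sig (2 ^ i))) ∧
      (∀ i < 6, t * v i * t⁻¹ = enc v (tau (2 ^ i))) ∧
      ∀ B : Subgroup Q, IsMulCommutative ↥B → Nat.card ↥B = 64 → B = A := by
  classical
  obtain ⟨haEls, A, hA, hA64, hAiff⟩ := Golay.exists_abelian q hq code _ _ m24ModData hmul hone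
    hsame hL hL' hab
  obtain ⟨hwmem, hwA, hwinj, hweq⟩ := witOK_spec hwit
  have hex : ∀ i, ∃ a, code a = wit.getD i permOne := by
    intro i
    by_cases hi : i < wit.length
    · rw [List.getD_eq_getElem _ _ hi]
      obtain ⟨y, hy, e⟩ := hwmem _ (List.getElem_mem hi)
      rw [e]
      exact hL' y hy
    · rw [List.getD_eq_default _ _ (not_lt.1 hi)]
      exact ⟨1, hone⟩
  choose e he using hex
  have henc : ∀ n, ∃ a, code a = encC n ∧ q a = enc (fun i => q (e i)) n := by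
    intro n
    refine ⟨pw (e 0) (n.testBit 0) * pw (e 1) (n.testBit 1) * pw (e 2) (n.testBit 2) *
      pw (e 3) (n.testBit 3) * pw (e 4) (n.testBit 4) * pw (e 5) (n.testBit 5), ?_, ?_⟩
    · rw [hmul, hmul, hmul, hmul, hmul, code_pw code (e 0) _ hone (he 0),
        code_pw code (e 1) _ hone (he 1), code_pw code (e 2) _ hone (he 2),
        code_pw code (e 3) _ hone (he 3), code_pw code (e 4) _ hone (he 4),
        code_pw code (e 5) _ hone (he 5)]
      delta encC
      rfl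
    · simp only [map_mul, map_pw, enc]
  have heq : ∀ i j n, sameMod zc
      (permMul (wit.getD i permOne) (wit.getD j permOne)) (permMul (encC n) (wit.getD i permOne)) = true →
      q (e i) * q (e j) * (q (e i))⁻¹ = enc (fun i => q (e i)) n := by
    intro i j n h
    obtain ⟨a, ha, hqa⟩ := henc n
    rw [← hqa, mul_inv_eq_iff_eq_mul, ← map_mul, ← map_mul, hsame, hmul, hmul, he, he, ha]
    exact h
  refine ⟨A, fun i => q (e i), q (e 6), q (e 7), hA, hA64, fun i hi => ?_, fun n hn h => ?_,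
    fun i hi => heq 6 i _ (hweq i hi).1, fun i hi => heq 7 i _ (hweq i hi).2,
    fun B hB hB64 => Golay.abelian_eq q hq code _ _ m24ModData hmul hone hsame hL hL'
      hco haEls A B hAiff hA64 hA.1 hB hB64⟩
  · obtain ⟨k, hk, h⟩ := hwA i hi
    obtain ⟨a, ha⟩ := haEls k hk
    refine (hAiff _).2 ⟨k, hk, a, ha, ((hsame a (e i)).2 ?_)⟩
    rw [ha, he]
    exact h
  · obtain ⟨a, ha, hqa⟩ := henc n
    rcases hwinj n hn with h0 | h0
    · exact h0
    · rw [← hqa, ← map_one q, hsame, ha, hone, h0] at h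
      exact absurd h (by simp)


theorem exists_frame (P : Sylow 2 ↥Cfsg.M24) :
    ∃ A : Subgroup (↥(P : Subgroup ↥Cfsg.M24) ⧸ Subgroup.center ↥(P : Subgroup ↥Cfsg.M24)),
      ∃ (v : ℕ → ↥(P : Subgroup ↥Cfsg.M24) ⧸ Subgroup.center ↥(P : Subgroup ↥Cfsg.M24))
        (s t : ↥(P : Subgroup ↥Cfsg.M24) ⧸ Subgroup.center ↥(P : Subgroup ↥Cfsg.M24)),
        Cfsg.IsElementaryAbelian 2 A ∧ Nat.card A = 64 ∧ (∀ i < 6, v i ∈ A) ∧
        (∀ n < 64, enc v n = 1 → n = 0) ∧
        (∀ i < 6, s * v i * s⁻¹ = enc v (sig (2 ^ i))) ∧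
        (∀ i < 6, t * v i * t⁻¹ = enc v (tau (2 ^ i))) ∧
        Nat.card (↥(P : Subgroup ↥Cfsg.M24) ⧸ Subgroup.center ↥(P : Subgroup ↥Cfsg.M24)) = 512 ∧
        ∀ B : Subgroup (↥(P : Subgroup ↥Cfsg.M24) ⧸ Subgroup.center ↥(P : Subgroup ↥Cfsg.M24)),
          IsMulCommutative ↥B → Nat.card ↥B = 64 → B = A := by
  obtain ⟨code, hmul, hone, hsame, hL, hL', hcard⟩ := exists_code P
  obtain ⟨A, v, s, t, h1, h2, h3, h4, h5, h6, h7⟩ :=
    exists_frame_of_code (QuotientGroup.mk' (Subgroup.center ↥(P : Subgroup ↥Cfsg.M24)))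
      (QuotientGroup.mk'_surjective _) code _ _ hmul hone hsame hL hL' witOK_true m24Mod_abOK
      m24Mod_cosetOK
  exact ⟨A, v, s, t, h1, h2, h3, h4, h5, h6, hcard, h7⟩

end Cfsg.Agent.M24Type
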