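import Cfsg.Agent.S3171

set_option autoImplicit false

/-!
The quotient of a Sylow 2-subgroup of M24 by its centre has the module structure of the frame.
-/

open Cfsg

namespace Cfsg.Agent.M24Type

open Cfsg.Agent.Golay Cfsg.Agent.SchurCert
open scoped Pointwise

open S3171 (tested tail_eq sylList_def)

attribute [local irreducible] permMul FusCert.gimg m24SylList Cert.layer

theorem gimg_ne_one (F : FusCert) (h : F.centreOK = true) : F.gimg F.zW ≠ permOne := by
  simp only [FusCert.centreOK, Bool.and_eq_true, Bool.not_eq_true'] at h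
  intro e
  have h3 := h.1.1.2
  rw [e] at h3
  simp at h3

theorem exists_code (P : Sylow 2 ↥Cfsg.M24) :
    ∃ code : ↥(P : Subgroup ↥Cfsg.M24) → ℕ,
      (∀ a b, code (a * b) = permMul (code a) (code b)) ∧ code 1 = permOne ∧
      (∀ a b, QuotientGroup.mk' (Subgroup.center ↥(P : Subgroup ↥Cfsg.M24)) a =
          QuotientGroup.mk' (Subgroup.center ↥(P : Subgroup ↥Cfsg.M24)) b ↔
        sameMod (m24FusCert.gimg m24FusCert.zW) (code a) (code b) = true) ∧
      (∀ a, code a ∈ m24SylList) ∧ (∀ c ∈ m24SylList, ∃ a, code a = c) ∧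
      Nat.card (↥(P : Subgroup ↥Cfsg.M24) ⧸ Subgroup.center ↥(P : Subgroup ↥Cfsg.M24)) = 512 := by
  classical
  haveI : Fact (Nat.Prime 2) := ⟨Nat.prime_two⟩
  haveI : Finite ↥Cfsg.M24 := Nat.finite_of_card_ne_zero (by rw [card_M24]; norm_num)
  set gen := elemAt Cfsg.M24 m24FusGens
  have hgen : ∀ i, (permCode Cfsg.M24).enc (gen i) = m24FusCert.gens.getD i permOne :=
    enc_elemAt tested.1 fun x hx =>
      permOfPair_mem_M24 (List.all_eq_true.1 tested.1 x hx) (tested.2 x hx)
  set P₀ := initGroup gen m24FusCert.P.n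
  have hodd := odd_index_of_card m24FusCert gen hgen m24Fus_presOK card_M24
    (m := 239085) (by decide +kernel) (by norm_num)
  obtain ⟨g, hg⟩ := MulAction.exists_smul_eq ↥Cfsg.M24
    ((IsPGroup.of_card (m24FusCert.card_eq gen hgen m24Fus_presOK)).toSylow hodd) P
  have hmem : ∀ x : ↥Cfsg.M24, x ∈ (P : Subgroup ↥Cfsg.M24) ↔ g⁻¹ * x * g ∈ P₀ := by
    intro x
    rw [← hg, Sylow.coe_subgroup_smul, Subgroup.mem_pointwise_smul_iff_inv_smul_mem,
      MulAut.smul_def, ← map_inv, MulAut.conj_apply, inv_inv]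
    rfl
  let code : ↥(P : Subgroup ↥Cfsg.M24) → ℕ := fun x => (permCode Cfsg.M24).enc (g⁻¹ * x * g)
  have hmul : ∀ a b, code (a * b) = permMul (code a) (code b) := fun a b => by
    refine Eq.trans (congrArg (permCode Cfsg.M24).enc ?_) ((permCode Cfsg.M24).enc_mul _ _)
    rw [Subgroup.coe_mul]
    group
  have hone : code 1 = permOne := by
    refine Eq.trans (congrArg (permCode Cfsg.M24).enc ?_) (permCode Cfsg.M24).enc_one
    rw [Subgroup.coe_one]
    group
  have hinj : Function.Injective code := fun a b h => Subtype.ext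
    (mul_left_cancel (mul_right_cancel ((permCode Cfsg.M24).enc_inj h)))
  have hL : ∀ a, code a ∈ m24SylList := fun a =>
    sylList_def.symm ▸ (m24FusCert.mem_iff gen hgen m24Fus_presOK _).1 ((hmem a).1 a.2)
  have hL' : ∀ c ∈ m24SylList, ∃ a, code a = c := by
    intro c hc
    rw [sylList_def] at hc
    obtain ⟨y, hy, rfl⟩ := (exists_enc_layer (permCode Cfsg.M24) m24FusCert.toCert
      Nat.prime_two gen (fun i _ => hgen i) (by decide +kernel) (by decide +kernel)
      m24FusCert.P.n le_rfl).2 c hc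
    refine ⟨⟨g * y * g⁻¹, (hmem _).2 ?_⟩, congrArg (permCode Cfsg.M24).enc ?_⟩
    · rwa [show g⁻¹ * (g * y * g⁻¹) * g = y by group]
    · show g⁻¹ * (g * y * g⁻¹) * g = y
      group
  obtain ⟨zP, hzP⟩ := hL' _ tail_eq
  have hzc : ∀ s, s * zP = zP * s := by
    intro s
    refine hinj ?_
    rw [hmul, hmul, hzP]
    obtain ⟨-, -, hc, -⟩ := m24FusCert.eq_z_of_central gen hgen m24Fus_presOK m24Fus_centreOK
    rw [← m24FusCert.enc_gimg gen hgen _ (by decide +kernel)]
    exact ((permCode Cfsg.M24).enc_mul _ _).symm.trans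
      ((congrArg (permCode Cfsg.M24).enc (hc _ ((hmem s).1 s.2))).trans
        ((permCode Cfsg.M24).enc_mul _ _))
  have hcenter : ∀ x : ↥(P : Subgroup ↥Cfsg.M24), x ∈ Subgroup.center _ ↔ x = 1 ∨ x = zP := by
    intro x
    constructor
    · intro hx
      obtain ⟨hz, -, -, huniq⟩ :=
        m24FusCert.eq_z_of_central gen hgen m24Fus_presOK m24Fus_centreOK
      by_cases h1 : x = 1
      · exact Or.inl h1
      refine Or.inr (hinj ?_)
      rw [hzP, ← m24FusCert.enc_gimg gen hgen _ (by decide +kernel)]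
      refine congrArg (permCode Cfsg.M24).enc (huniq _ ((hmem x).1 x.2) (fun h => h1 ?_) fun s hs => ?_)
      · refine hinj ?_
        show (permCode Cfsg.M24).enc (g⁻¹ * x * g) = code 1
        rw [h, (permCode Cfsg.M24).enc_one, hone]
        rfl
      · have hs' : g * s * g⁻¹ ∈ (P : Subgroup ↥Cfsg.M24) := by
          rw [hmem, show g⁻¹ * (g * s * g⁻¹) * g = s by group]
          exact hs
        have h2 : (g * s * g⁻¹) * x = x * (g * s * g⁻¹) :=
          congrArg Subtype.val (Subgroup.mem_center_iff.1 hx ⟨_, hs'⟩)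
        calc s * (g⁻¹ * x * g) = g⁻¹ * ((g * s * g⁻¹) * x) * g := by group
          _ = g⁻¹ * (x * (g * s * g⁻¹)) * g := by rw [h2]
          _ = g⁻¹ * x * g * s := by group
    · rintro (rfl | rfl)
      · exact one_mem _
      · exact Subgroup.mem_center_iff.2 hzc
  set q := QuotientGroup.mk' (Subgroup.center ↥(P : Subgroup ↥Cfsg.M24))
  have hsame : ∀ a b, q a = q b ↔
      sameMod (m24FusCert.gimg m24FusCert.zW) (code a) (code b) = true := by
    intro a b
    rw [sameMod, Bool.or_eq_true, ← hzP, ← hmul,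
      MonoidHom.eq_iff, QuotientGroup.ker_mk', hcenter]
    simp only [Nat.beq_eq, hinj.eq_iff]
    constructor
    · rintro (h | h)
      · exact Or.inl (inv_mul_eq_one.1 h).symm
      · exact Or.inr (by rw [← h, mul_inv_cancel_left])
    · rintro (h | h)
      · exact Or.inl (by rw [h, inv_mul_cancel])
      · exact Or.inr (by rw [h, inv_mul_cancel_left])
  refine ⟨code, hmul, hone, hsame, hL, hL', ?_⟩
  have hP : Nat.card ↥(P : Subgroup ↥Cfsg.M24) = 1024 := by
    rw [P.card_eq_multiplicity, ← ((IsPGroup.of_card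
      (m24FusCert.card_eq gen hgen m24Fus_presOK)).toSylow hodd).card_eq_multiplicity]
    exact (m24FusCert.card_eq gen hgen m24Fus_presOK).trans (by decide)
  have hz1 : zP ≠ 1 := fun h => by
    have h1 := congrArg code h
    rw [hzP, hone] at h1
    exact gimg_ne_one _ m24Fus_centreOK h1
  have hZ : Nat.card ↥(Subgroup.center ↥(P : Subgroup ↥Cfsg.M24)) = 2 := by
    have e : ((Subgroup.center ↥(P : Subgroup ↥Cfsg.M24) :
        Subgroup ↥(P : Subgroup ↥Cfsg.M24)) : Set ↥(P : Subgroup ↥Cfsg.M24)) = {1, zP} := by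
      ext x
      simp only [SetLike.mem_coe, Set.mem_insert_iff, Set.mem_singleton_iff]
      exact hcenter x
    rw [← SetLike.coe_sort_coe, e, Nat.card_coe_set_eq, Set.ncard_pair (Ne.symm hz1)]
  have h := Subgroup.card_eq_card_quotient_mul_card_subgroup
    (Subgroup.center ↥(P : Subgroup ↥Cfsg.M24))
  rw [hP, hZ] at h
  omega


end Cfsg.Agent.M24Type
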